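import Cfsg.Agent.Fi23Recog54.Tenth

/-!
The homomorphism of the presented Fi23 given by nine lifts and the tenth member.
-/

set_option autoImplicit false
set_option maxRecDepth 8000

namespace CfsgLib.Fi23Recog54

open Cfsg CfsgLib.ThreeTransp CfsgLib.ThreeTransp.Cover58 CfsgLib.FischerRecog58 CfsgLib.CosetEnum

universe u

variable {G : Type u} [Group G] {d : G}

theorem conjugate_sq (hd : d * d = 1) {u : G} (hu : u ∈ conjugatesOf d) : u * u = 1 := by
  obtain ⟨g, rfl⟩ := isConj_iff.1 hu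
  rw [conj_mul, hd, mul_one, mul_inv_cancel]

theorem conjugate_inv (hd : d * d = 1) {u : G} (hu : u ∈ conjugatesOf d) : u⁻¹ = u :=
  inv_eq_of_mul_eq_one_right (conjugate_sq hd hu)

theorem braid_iff {u v : G} (hu : u * u = 1) (hv : v * v = 1) :
    (u * v) ^ 3 = 1 ↔ u * v * u = v * u * v := by
  have key : (u * v) ^ 3 = u * v * u * (v * u * v) := by
    simp only [pow_succ, pow_zero, one_mul, mul_assoc]
  have h2 : v * u * v * (v * u * v) = 1 := by
    simp only [mul_assoc]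
    rw [← mul_assoc v v, hv, one_mul, ← mul_assoc u u, hu, one_mul, hv]
  constructor
  · intro h
    rw [key] at h
    exact mul_right_cancel (h.trans h2.symm)
  · intro h
    rw [key, h, h2]

theorem commute_iff_sq {u v : G} (hu : u * u = 1) (hv : v * v = 1) :
    Commute u v ↔ (u * v) ^ 2 = 1 := by
  constructor
  · intro h
    rw [h.mul_pow, pow_two, pow_two, hu, hv, one_mul]
  · intro h
    have e := inv_eq_of_mul_eq_one_left (by rwa [pow_two] at h : u * v * (u * v) = 1)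
    rw [mul_inv_rev, inv_eq_of_mul_eq_one_left hu, inv_eq_of_mul_eq_one_left hv] at e
    exact e.symm

/-- The members commuting with a conjugate, in the local chart. -/
theorem exists_chart (L : Loc D22 d) {a : G} (ha : a ∈ conjugatesOf d) :
    ∃ F : G → Spor.Fi22, GMap (nbr (conjugatesOf d) a) D22 F ∧
      ∀ x ∈ nbr (conjugatesOf d) a, ∀ y ∈ nbr (conjugatesOf d) a,
        F (x * y * x⁻¹) = F x * F y * (F x)⁻¹ := by
  obtain ⟨g, hg⟩ := isConj_iff.1 ha
  have h0 : g⁻¹ * a * g⁻¹⁻¹ = d := by rw [inv_inv, ← hg]; group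
  have hm : ∀ x ∈ nbr (conjugatesOf d) a, g⁻¹ * x * g⁻¹⁻¹ ∈ Nd d := fun x hx => by
    have h := nbr_conjugates (d := d) g⁻¹ hx
    rwa [h0] at h
  have hgm : GMap (nbr (conjugatesOf d) a) (Nd d) (fun x => g⁻¹ * x * g⁻¹⁻¹) :=
    gmap_conj g⁻¹ hm fun z hz => by
      have h := nbr_conjugates (d := d) g hz
      rw [hg] at h
      rwa [inv_inv]
  refine ⟨fun x => L.φ (g⁻¹ * x * g⁻¹⁻¹), hgm.comp L.gmap, fun x hx y hy => ?_⟩
  show L.φ (g⁻¹ * (x * y * x⁻¹) * g⁻¹⁻¹) = _
  rw [← L.φ_conj (hm x hx).2.2.symm (hm y hy).2.2.symm]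
  congr 1
  group

theorem nbr_conj_self {a x y : G} (hx : x ∈ nbr (conjugatesOf d) a)
    (hy : y ∈ nbr (conjugatesOf d) a) : x * y * x⁻¹ ∈ nbr (conjugatesOf d) a := by
  have h := nbr_conjugates x hy
  rwa [← hx.2.2.eq, mul_inv_cancel_right] at h

/-- Two members commuting with a third either commute or generate a symmetric group. -/
theorem member_pow (L : Loc D22 d) {a u v : G} (ha : a ∈ conjugatesOf d)
    (hu : u ∈ nbr (conjugatesOf d) a) (hv : v ∈ nbr (conjugatesOf d) a) (hn : ¬ Commute u v) :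
    (u * v) ^ 3 = 1 := by
  obtain ⟨F, hF, hFc⟩ := exists_chart L ha
  rw [braid_iff (conjugate_sq L.sq hu.1) (conjugate_sq L.sq hv.1)]
  have hb := tt_braid set22 (hF.mem u hu) (hF.mem v hv) fun h => hn ((hF.comm u hu v hv).1 h)
  have e : F (u * v * u⁻¹) = F (v * u * v⁻¹) := by
    rw [hFc u hu v hv, hFc v hv u hu, tt_inv set22 (hF.mem u hu), tt_inv set22 (hF.mem v hv), hb]
  have e' := hF.inj (nbr_conj_self hu hv) (nbr_conj_self hv hu) e
  rwa [conjugate_inv L.sq hu.1, conjugate_inv L.sq hv.1] at e'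

/-- A trace on the common members determines the member up to conjugation by `d`. -/
theorem eq_or_dconj (L : Loc D22 d) {a i J P : G} (ha : a ∈ Nd d) (hi : i ∈ Od d a)
    (hJ : J ∈ nbr (conjugatesOf d) a) (hJi : J ∈ nbr (conjugatesOf d) i) (hdJ : ¬ Commute d J)
    (hP : P ∈ nbr (conjugatesOf d) a) (hPi : P ∈ nbr (conjugatesOf d) i) (hdP : ¬ Commute d P)
    (htr : ∀ z ∈ Od d a, z ∈ nbr (conjugatesOf d) i → Commute z P → Commute z J) :
    J = P ∨ J = d * P * d⁻¹ := by
  obtain ⟨F, hF, hFc⟩ := exists_chart L ha.1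
  have hd : d ∈ nbr (conjugatesOf d) a := ⟨mem_conjugatesOf_self, ha.2.1.symm, ha.2.2.symm⟩
  have hdi : d ∈ nbr (conjugatesOf d) i := ⟨mem_conjugatesOf_self, hi.1.2.1.symm, hi.1.2.2.symm⟩
  have hFi : F i ∈ D22 := hF.mem i hi.2
  have hr := hF.restrict (nbr_subset (conjugatesOf d) a) (Set.Subset.refl D22) hi.2
    (D := conjugatesOf d)
  rw [Set.inter_eq_right.2 (nbr_subset D22 (F i))] at hr
  have mW : ∀ x ∈ nbr (conjugatesOf d) a, x ∈ nbr (conjugatesOf d) i → F x ∈ nbr D22 (F i) :=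
    fun x hx hxi => hr.mem x ⟨hx, hxi⟩
  rcases (lineSet22_nbr hFi).line _ (mW d hd hdi) _ (mW P hP hPi)
      (fun h => hdP ((hF.comm d hd P hP).1 h)) _ (mW J hJ hJi) (fun w hw hwd hwP => by
      obtain ⟨z, hz, rfl⟩ := hr.surj w hw
      have hzd := (hF.nbr_iff (nbr_subset _ a) (Set.Subset.refl D22) hd hz.1).1 hwd
      have hzP := (hF.nbr_iff (nbr_subset _ a) (Set.Subset.refl D22) hP hz.1).1 hwP
      refine (hF.nbr_iff (D := conjugatesOf d) (nbr_subset _ a) (Set.Subset.refl D22) hJ hz.1).2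
        ⟨hz.1.1, fun e => hdJ (e ▸ hzd.2.2), ?_⟩
      exact (htr z ⟨hzd, hz.1⟩ hz.2 hzP.2.2.symm).symm) with e | e | e
  · exact absurd (hF.inj hJ hd e) fun h => hdJ (h ▸ Commute.refl d)
  · exact Or.inl (hF.inj hJ hP e)
  · refine Or.inr (hF.inj hJ (nbr_conj_self hd hP) ?_)
    rw [e, hFc d hd P hP, tt_inv set22 (hF.mem d hd)]

/-! ### The model -/

theorem node22 (x : Spor.Fi22.Gen) : x ∈ Spor.coxNodes Spor.Fi22.edges := by
  cases x <;> decide

theorem node23 (x : Spor.Fi23.Gen) : x ∈ Spor.coxNodes Spor.Fi23.edges := by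
  cases x <;> decide

theorem rel22 (x y : Spor.Fi22.Gen) : (Fi22.gen (Fi22.enc x) * Fi22.gen (Fi22.enc y)) ^
    Spor.coxLabel Spor.Fi22.edges x y = 1 := by
  have h := PresentedGroup.one_of_mem (rels := Spor.coxRelators Spor.Fi22.edges ∪
    {r | r ∈ Spor.Fi22.extra}) (x := (FreeGroup.of x * FreeGroup.of y) ^
      Spor.coxLabel Spor.Fi22.edges x y) (Or.inl ⟨x, node22 x, y, node22 y, rfl⟩)
  rw [map_pow, map_mul] at h
  rw [Fi22.gen, Fi22.gen, Fi22.dec_enc, Fi22.dec_enc]
  exact h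

theorem rel23 (x y : Spor.Fi23.Gen) : (Fi23.gen (Fi23.enc x) * Fi23.gen (Fi23.enc y)) ^
    Spor.coxLabel Spor.Fi23.edges x y = 1 := by
  have h := PresentedGroup.one_of_mem (rels := Spor.coxRelators Spor.Fi23.edges ∪
    {r | r ∈ Spor.Fi23.extra}) (x := (FreeGroup.of x * FreeGroup.of y) ^
      Spor.coxLabel Spor.Fi23.edges x y) (Or.inl ⟨x, node23 x, y, node23 y, rfl⟩)
  rw [map_pow, map_mul] at h
  rw [Fi23.gen, Fi23.gen, Fi23.dec_enc, Fi23.dec_enc]
  exact h

/-- whether two of the ten letters are joined -/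
def joined : ℕ → ℕ → Bool := fun x y =>
  [(0, 1), (1, 2), (2, 3), (3, 4), (3, 7), (4, 5), (5, 6), (6, 9), (7, 8)].any
    fun p => (p.1 == x && p.2 == y) || (p.1 == y && p.2 == x)

theorem label23 (x y : Spor.Fi23.Gen) : Spor.coxLabel Spor.Fi23.edges x y =
    if Fi23.enc x = Fi23.enc y then 1 else if joined (Fi23.enc x) (Fi23.enc y) then 3 else 2 := by
  cases x <;> cases y <;> decide

theorem commute_gen23 {x y : ℕ} (hx : x < 10) (hy : y < 10) (h : joined x y = false) :
    Commute (Fi23.gen x) (Fi23.gen y) := by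
  by_cases e : x = y
  · rw [e]
  have hr := rel23 (Fi23.dec x) (Fi23.dec y)
  have ex : ∀ {x}, x < 10 → Fi23.enc (Fi23.dec x) = x := fun {x} hx => by
    interval_cases x <;> rfl
  rw [label23, ex hx, ex hy, if_neg e, h] at hr
  exact (commute_iff_sq (Fi23.gen_sq x) (Fi23.gen_sq y)).2 hr

theorem gP_inj : ((List.range 10).all fun x => (List.range 10).all fun y =>
    x == y || !(Nat.beq (Fi23Out54.gP x) (Fi23Out54.gP y))) = true := by decide +kernel

theorem gen23_inj {x y : ℕ} (hx : x < 10) (hy : y < 10) (h : Fi23.gen x = Fi23.gen y) : x = y := by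
  rw [Fi23Out54.gen_tran hx, Fi23Out54.gen_tran hy] at h
  have e := congrArg Fin.val (Fi23Out54.tran_injective h)
  rw [Fi23Out54.gpt_val hx, Fi23Out54.gpt_val hy] at e
  have hc := List.all_eq_true.1 (List.all_eq_true.1 gP_inj x (List.mem_range.2 hx)) y
    (List.mem_range.2 hy)
  rw [e, Nat.beq_refl] at hc
  simpa using hc

theorem gen_nine_notMem : Fi23.gen 9 ∉ Fi23.Hs := by
  intro h
  have htop : Fi23.Hs = ⊤ := by
    rw [eq_top_iff, ← Fi23.closure_g10, Subgroup.closure_le]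
    rintro _ ⟨x, hx, rfl⟩
    rw [Fi23.g10, letterVal_lt Fi23.gen hx]
    by_cases h9 : x < 9
    · exact gen23_mem h9
    · rw [show x = 9 by omega]; exact h
  have := Fi23.index_and_card_Hs.1
  rw [htop, Subgroup.index_top] at this
  norm_num at this

theorem not_commute_z0_nine : ¬ Commute Fi23.z0 (Fi23.gen 9) := fun h =>
  gen_nine_notMem (Fi23.mem_Hs_of_commute h.eq)

theorem gen22_mem {x : ℕ} (hx : x < 9) : Fi22.gen x ∈ D22 := by
  obtain ⟨p, hp⟩ := Fi22Out.gen_eq_tran hx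
  rw [hp]
  exact tran22_mem p

theorem gen23_class {x : ℕ} (hx : x < 10) : Fi23.gen x ∈ conjugatesOf Fi23.z0 :=
  mem_class23.2 ⟨_, (Fi23Out54.gen_tran hx).symm⟩

theorem gen23_nd {x : ℕ} (hx : x < 9) : Fi23.gen x ∈ Nd Fi23.z0 := by
  refine ⟨gen23_class (by omega), fun h => tt_ne_one set22 (gen22_mem hx) ?_,
    Fi23.commute_of_mem (gen23_mem hx)⟩
  rw [← modelLoc_φ_gen hx, h, modelLoc.φ_self]

/-- The nine lifts and the tenth member. -/
theorem exists_images (L : Loc D22 d) (hP : TraceProp L) : ∃ s : ℕ → G,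
    (∀ x < 9, s x ∈ Nd d ∧ L.φ (s x) = Fi22.gen x) ∧ s 9 ∈ conjugatesOf d ∧
    ¬ Commute d (s 9) ∧ (∀ x < 9, x ≠ 6 → Commute (s x) (s 9)) ∧ (s 6 * s 9) ^ 3 = 1 := by
  choose t ht hte using fun x : Fin 9 => L.φ_onto (gen22_mem x.2)
  have hth : ∀ x : Fin 9, theta L (t x) = Fi23.gen x := fun x =>
    theta_eq L (ht x) (gen23_nd x.2) (by rw [hte, modelLoc_φ_gen x.2])
  have hcom : ∀ x y : Fin 9, joined x y = false → Commute (t x) (t y) := fun x y h => by
    rw [← L.φ_commute (ht x) (ht y), hte, hte, ← modelLoc_φ_gen x.2, ← modelLoc_φ_gen y.2,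
      modelLoc.φ_commute (gen23_nd x.2) (gen23_nd y.2)]
    exact commute_gen23 (by omega) (by omega) h
  have hne : ∀ x y : Fin 9, x ≠ y → t x ≠ t y := fun x y h e => by
    have h' := hth x
    rw [e, hth y] at h'
    exact h (Fin.ext (gen23_inj (by omega) (by omega) h').symm)
  have hod : ∀ x y : Fin 9, joined x y = false → x ≠ y → t y ∈ Od d (t x) := fun x y h e =>
    ⟨ht y, (ht y).1, (hne x y e).symm, hcom x y h⟩
  have hget : ∀ a : Fin 9, joined a 9 = false →
      ∃ J ∈ nbr (conjugatesOf d) (t a), ¬ Commute d J ∧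
        ∀ x ∈ Od d (t a), (Commute x J ↔ Commute (theta L x) (Fi23.gen 9)) := fun a h => by
    refine hP _ (ht a) _ ⟨gen23_class (by norm_num), ?_, ?_⟩ not_commute_z0_nine
    · rw [hth]
      intro e
      have := gen23_inj (by norm_num) (by omega) e
      omega
    · rw [hth]
      exact commute_gen23 (by omega) (by norm_num) h
  obtain ⟨J, hJ, hdJ, hJt⟩ := hget 0 rfl
  obtain ⟨P, hP', hdP, hPt⟩ := hget 8 rfl
  have hJx : ∀ x : Fin 9, x ≠ 1 → x ≠ 6 → Commute (t x) J := fun x h1 h6 => by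
    by_cases h0 : x = 0
    · subst h0
      exact hJ.2.2
    refine (hJt _ (hod 0 x (by revert x; decide) (Ne.symm h0))).2 ?_
    rw [hth]
    exact commute_gen23 (by omega) (by norm_num) (by revert x; decide)
  have hPx : ∀ x : Fin 9, x = 0 ∨ x = 1 → Commute (t x) P := fun x hx => by
    refine (hPt _ (hod 8 x (by rcases hx with rfl | rfl <;> rfl)
      (by rcases hx with rfl | rfl <;> decide))).2 ?_
    rw [hth]
    rcases hx with rfl | rfl <;> exact commute_gen23 (by norm_num) (by norm_num) rfl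
  have hJb : Commute (t 1) J := by
    have hne' : ∀ {z : G}, Commute d z → z ≠ J := fun hz e => hdJ (e ▸ hz)
    have hne'' : ∀ {z : G}, Commute d z → z ≠ P := fun hz e => hdP (e ▸ hz)
    rcases eq_or_dconj L (ht 0) (hod 0 8 rfl (by decide)) hJ
        ⟨hJ.1, (hne' (ht 8).2.2).symm, hJx 8 (by decide) (by decide)⟩ hdJ
        ⟨hP'.1, (hne'' (ht 0).2.2).symm, hPx 0 (Or.inl rfl)⟩ hP' hdP
        (fun z hz hzi hzP => (hJt z hz).2 ((hPt z ⟨hz.1, hzi⟩).1 hzP)) with e | e
    · exact e ▸ hPx 1 (Or.inr rfl)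
    · rw [e, show t 1 = d * t 1 * d⁻¹ by rw [(ht 1).2.2.eq, mul_inv_cancel_right],
        commute_conj_iff']
      exact hPx 1 (Or.inr rfl)
  refine ⟨fun x => if h : x < 9 then t ⟨x, h⟩ else J, fun x hx => ?_, ?_, ?_, fun x hx h6 => ?_,
    ?_⟩
  · simp only [dif_pos hx]
    exact ⟨ht _, hte _⟩
  · exact hJ.1
  · exact hdJ
  · show Commute (dite (x < 9) _ _) J
    rw [dif_pos hx]
    by_cases h1 : x = 1
    · subst h1; exact hJb
    · exact hJx ⟨x, hx⟩ (fun e => h1 (congrArg Fin.val e)) fun e => h6 (congrArg Fin.val e)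
  · show (t 6 * J) ^ 3 = 1
    refine member_pow L (ht 0).1 (hod 0 6 rfl (by decide)).2 hJ fun h => ?_
    have h' := (hJt _ (hod 0 6 rfl (by decide))).1 h
    rw [hth] at h'
    have hr := rel23 .g .j
    have e2 := (commute_iff_sq (Fi23.gen_sq 6) (Fi23.gen_sq 9)).1 h'
    have e1 : Fi23.gen 6 * Fi23.gen 9 = 1 := by
      rw [show Spor.coxLabel Spor.Fi23.edges Spor.Fi23.Gen.g Spor.Fi23.Gen.j = 2 + 1 by decide,
        pow_succ] at hr
      change (Fi23.gen 6 * Fi23.gen 9) ^ 2 * (Fi23.gen 6 * Fi23.gen 9) = 1 at hr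
      rwa [e2, one_mul] at hr
    have := gen23_inj (by norm_num : 6 < 10) (by norm_num : 9 < 10)
      (by rw [eq_inv_of_mul_eq_one_left e1, Fi23.gen_inv])
    omega

/-- The presented Fi23 maps into the group, taking `z0` to `d`. -/
theorem exists_hom (L : Loc D22 d) (hP : TraceProp L)
    (hlift : ∀ z, L.f z * L.f z = 1 → z * z = 1) :
    ∃ ψ : Spor.Fi23 →* G, Function.Injective ψ ∧ ψ Fi23.z0 = d ∧
      Subgroup.centralizer ({d} : Set G) ≤ ψ.range ∧
      ∀ h, Commute h Fi23.z0 → Commute (ψ h) d ∧ L.φ (ψ h) = modelLoc.φ h := by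
  obtain ⟨s, hs, hJc, hdJ, hcJ, hbr⟩ := exists_images L hP
  have hsq : ∀ x, x < 10 → s x * s x = 1 := fun x hx => by
    by_cases h : x < 9
    · exact conjugate_sq L.sq (hs x h).1.1
    · rw [show x = 9 by omega]; exact conjugate_sq L.sq hJc
  have hsc : ∀ x, x < 9 → s x ∈ Subgroup.centralizer ({d} : Set G) := fun x hx =>
    mem_cent54.2 (hs x hx).1.2.2.symm
  have hsf : ∀ x (hx : x < 9), L.f ⟨s x, hsc x hx⟩ = Fi22.gen x := fun x hx => by
    rw [← L.φ_eq (hs x hx).1.2.2.symm, (hs x hx).2]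
  -- the relators among the nine lifts
  have hnine : ∀ x y, x < 9 → y < 9 → x ≠ y →
      (joined x y = true → (s x * s y) ^ 3 = 1) ∧ (joined x y = false → (s x * s y) ^ 2 = 1) := by
    intro x y hx hy hxy
    have hcx := (hs x hx).1.2.2.symm
    have hcy := (hs y hy).1.2.2.symm
    have hg : ∀ n, (Fi22.gen x * Fi22.gen y) ^ n = 1 → (n = 3 → (s x * s y) ^ 3 = 1) ∧
        (n = 2 → (s x * s y) ^ 2 = 1) := by
      intro n hn
      refine ⟨fun e => ?_, fun e => ?_⟩ <;> subst e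
      · rw [braid_iff (hsq x (by omega)) (hsq y (by omega))]
        have e := (braid_iff (Fi22.gen_sq x) (Fi22.gen_sq y)).1 hn
        have h1 := L.φ_inj (nd_conj hcx (hs y hy).1) (nd_conj hcy (hs x hx).1) (by
          rw [L.φ_conj hcx hcy, L.φ_conj hcy hcx, (hs x hx).2, (hs y hy).2, Fi22.gen_inv,
            Fi22.gen_inv, e])
        rwa [conjugate_inv L.sq (hs x hx).1.1, conjugate_inv L.sq (hs y hy).1.1] at h1
      · rw [← commute_iff_sq (hsq x (by omega)) (hsq y (by omega)),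
          ← L.φ_commute (hs x hx).1 (hs y hy).1, (hs x hx).2, (hs y hy).2]
        exact (commute_iff_sq (Fi22.gen_sq x) (Fi22.gen_sq y)).2 hn
    have ex : ∀ {x}, x < 9 → Fi22.enc (Fi22.dec x) = x := fun {x} hx => by
      interval_cases x <;> rfl
    have hlab : ∀ x y : Spor.Fi22.Gen, Fi22.enc x ≠ Fi22.enc y →
        Spor.coxLabel Spor.Fi22.edges x y =
          if joined (Fi22.enc x) (Fi22.enc y) then 3 else 2 := by
      intro x y h
      cases x <;> cases y <;> first | exact absurd rfl h | decide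
    have hr := rel22 (Fi22.dec x) (Fi22.dec y)
    rw [hlab _ _ (by rwa [ex hx, ex hy]), ex hx, ex hy] at hr
    obtain ⟨h3, h2⟩ := hg _ hr
    exact ⟨fun h => h3 (if_pos h), fun h => h2 (if_neg (by rw [h]; decide))⟩
  have hcox : ∀ x y : Spor.Fi23.Gen, (s (Fi23.enc x) * s (Fi23.enc y)) ^
      Spor.coxLabel Spor.Fi23.edges x y = 1 := by
    intro x y
    rw [label23]
    by_cases hxy : Fi23.enc x = Fi23.enc y
    · rw [if_pos hxy, pow_one, hxy, hsq _ (Fi23.enc_lt y)]
    rw [if_neg hxy]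
    have hx := Fi23.enc_lt x
    have hy := Fi23.enc_lt y
    generalize Fi23.enc x = p, Fi23.enc y = q at hx hy hxy ⊢
    by_cases h9 : p = 9 ∨ q = 9
    · have key : ∀ r < 9, (s r * s 9) ^ (if joined r 9 = true then 3 else 2) = 1 := fun r hr => by
        by_cases h6 : r = 6
        · subst h6; exact hbr
        · rw [if_neg (by interval_cases r <;> first | exact absurd rfl h6 | decide)]
          exact (commute_iff_sq (hsq r (by omega)) (hsq 9 (by norm_num))).1 (hcJ r hr h6)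
      rcases h9 with rfl | rfl
      · have hj : joined 9 q = joined q 9 := by interval_cases q <;> rfl
        rw [hj]
        have e := key q (by omega)
        have hi : s 9 * s q = (s q * s 9)⁻¹ := by
          rw [mul_inv_rev, inv_eq_of_mul_eq_one_left (hsq 9 (by norm_num)),
            inv_eq_of_mul_eq_one_left (hsq q (by omega))]
        rw [hi, inv_pow, e, inv_one]
      · exact key p (by omega)
    push Not at h9
    obtain ⟨h3, h2⟩ := hnine p q (by omega) (by omega) hxy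
    cases hb : joined p q
    · exact h2 hb
    · exact h3 hb
  -- the further relators
  have hword : ∀ (w : List ℕ) (hw : ∀ x ∈ w, x < 9), ∃ h : (w.map s).prod ∈
      Subgroup.centralizer ({d} : Set G), L.f ⟨_, h⟩ = (w.map Fi22.gen).prod := by
    intro w
    induction w with
    | nil => exact fun _ => ⟨one_mem _, map_one L.f⟩
    | cons x w ih =>
      intro hw
      obtain ⟨h, e⟩ := ih fun y hy => hw y (List.mem_cons_of_mem _ hy)
      have hx := hw x List.mem_cons_self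
      have hm : ((x :: w).map s).prod ∈ Subgroup.centralizer ({d} : Set G) := by
        rw [List.map_cons, List.prod_cons]
        exact mul_mem (hsc x hx) h
      refine ⟨hm, ?_⟩
      rw [show (⟨_, hm⟩ : ↥(Subgroup.centralizer ({d} : Set G))) = ⟨s x, hsc x hx⟩ * ⟨_, h⟩ from
        Subtype.ext (by rw [Subgroup.coe_mul]; exact List.prod_cons), map_mul, hsf x hx, e,
        List.map_cons, List.prod_cons]
  have hext22 : ∀ r ∈ Spor.Fi22.extra, PresentedGroup.mk (Spor.coxRelators Spor.Fi22.edges ∪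
      {r | r ∈ Spor.Fi22.extra}) r = 1 := fun r hr => PresentedGroup.one_of_mem (Or.inr hr)
  have hspider : (([3, 2, 1, 3, 4, 5, 3, 7, 8] : List ℕ).map s).prod ^ 10 = 1 := by
    obtain ⟨h, e⟩ := hword [3, 2, 1, 3, 4, 5, 3, 7, 8] (by decide)
    have hr := hext22 _ List.mem_cons_self
    obtain ⟨W, hW⟩ : ∃ W : ↥(Subgroup.centralizer ({d} : Set G)), W = ⟨_, h⟩ := ⟨_, rfl⟩
    have h5 : L.f (W ^ 5) * L.f (W ^ 5) = 1 := by
      rw [← map_mul, ← pow_add, map_pow, hW, e, ← hr, map_pow]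
      simp only [List.map_cons, List.map_nil, List.prod_cons, List.prod_nil, mul_one, map_mul,
        mul_assoc]
      rfl
    have h10 := congrArg Subtype.val (hlift _ h5)
    rw [← pow_add, hW] at h10
    exact h10
  have hseven : (([0, 1, 2, 3, 4, 5, 7] : List ℕ).map s).prod ^ 9 = 1 := by
    obtain ⟨h, e⟩ := hword [0, 1, 2, 3, 4, 5, 7] (by decide)
    have hr := hext22 _ (List.mem_cons_of_mem _ List.mem_cons_self)
    obtain ⟨W, hW⟩ : ∃ W : ↥(Subgroup.centralizer ({d} : Set G)), W = ⟨_, h⟩ := ⟨_, rfl⟩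
    have h9 : L.f (W ^ 9) = 1 := by
      rw [map_pow, hW, e, ← hr, map_pow]
      simp only [List.map_cons, List.map_nil, List.prod_cons, List.prod_nil, mul_one, map_mul,
        mul_assoc]
      rfl
    have hcw : Commute ((([0, 1, 2, 3, 4, 5, 7] : List ℕ).map s).prod ^ 9) (s 9) := by
      refine Commute.pow_left (Commute.list_prod_left _ _ fun z hz => ?_) 9
      obtain ⟨x, hx, rfl⟩ := List.mem_map.1 hz
      simp only [List.mem_cons, List.not_mem_nil, or_false] at hx
      exact hcJ x (by omega) (by omega)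
    rcases (L.ker _).1 h9 with h1 | h1 <;> rw [hW] at h1
    · exact h1
    · rw [show (([0, 1, 2, 3, 4, 5, 7] : List ℕ).map s).prod ^ 9 = d from h1] at hcw
      exact absurd hcw hdJ
  have hrels : ∀ r ∈ Spor.coxRelators Spor.Fi23.edges ∪ {r | r ∈ Spor.Fi23.extra},
      FreeGroup.lift (fun a => s (Fi23.enc a)) r = 1 := by
    rintro r (⟨x, -, y, -, rfl⟩ | hr)
    · rw [map_pow, map_mul, FreeGroup.lift_apply_of, FreeGroup.lift_apply_of]
      exact hcox x y
    · simp only [Spor.Fi23.extra, Set.mem_ofPred_eq, List.mem_cons, List.not_mem_nil, or_false] at hr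
      rcases hr with rfl | rfl
      · rw [map_pow]
        simp only [map_mul, FreeGroup.lift_apply_of, Fi23.enc]
        simpa [mul_assoc] using hspider
      · rw [map_pow]
        simp only [map_mul, FreeGroup.lift_apply_of, Fi23.enc]
        simpa [mul_assoc] using hseven
  obtain ⟨ψ, hψ⟩ : ∃ ψ : Spor.Fi23 →* G, ψ = PresentedGroup.toGroup hrels := ⟨_, rfl⟩
  have hψg : ∀ x < 10, ψ (Fi23.gen x) = s x := fun x hx => by
    rw [hψ, Fi23.gen, PresentedGroup.toGroup.of]
    interval_cases x <;> rfl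
  have hinj : Function.Injective ψ := by
    rw [← MonoidHom.ker_eq_bot_iff]
    have := Fi23.simple
    refine (IsSimpleGroup.eq_bot_or_eq_top_of_normal ψ.ker inferInstance).resolve_right fun h => ?_
    have e : ψ (Fi23.gen 0) = 1 := MonoidHom.mem_ker.1 (h ▸ Subgroup.mem_top _)
    rw [hψg 0 (by norm_num)] at e
    have := (hs 0 (by norm_num)).2
    rw [e, L.φ_eq (Commute.one_left d)] at this
    exact tt_ne_one set22 (gen22_mem (x := 0) (by norm_num)) (this.symm.trans (map_one L.f))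
  have hHs : ∀ h ∈ Fi23.Hs, Commute (ψ h) d ∧ L.φ (ψ h) = modelLoc.φ h := by
    intro h hh
    induction hh using Subgroup.closure_induction with
    | mem z hz =>
      obtain ⟨x, hx, rfl⟩ := hz
      rw [Fi23.g10, letterVal_lt Fi23.gen (by omega), hψg x (by omega), (hs x hx).2,
        modelLoc_φ_gen hx]
      exact ⟨(hs x hx).1.2.2.symm, rfl⟩
    | one =>
      rw [map_one, L.φ_eq (Commute.one_left d), modelLoc.φ_eq (Commute.one_left _)]
      exact ⟨Commute.one_left d, (map_one L.f).trans (map_one modelLoc.f).symm⟩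
    | mul z w hz hw ihz ihw =>
      rw [map_mul, L.φ_mul ihz.1 ihw.1, modelLoc.φ_mul (mem_cent54.1 (mem_C0 hz))
        (mem_cent54.1 (mem_C0 hw)), ihz.2, ihw.2]
      exact ⟨ihz.1.mul_left ihw.1, rfl⟩
    | inv z hz ihz =>
      rw [map_inv, L.φ_inv ihz.1, modelLoc.φ_inv (mem_cent54.1 (mem_C0 hz)), ihz.2]
      exact ⟨ihz.1.inv_left, rfl⟩
  have hz0 : ψ Fi23.z0 = d := by
    obtain ⟨hc, he⟩ := hHs _ Fi23.z0_mem
    rw [modelLoc.φ_self, L.φ_eq_one hc] at he
    exact he.resolve_left fun e => Fi23.z0_ne (hinj (e.trans (map_one ψ).symm))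
  refine ⟨ψ, hinj, hz0, fun c hc => ?_, fun h hh => hHs h (Fi23.mem_Hs_of_commute hh.symm.eq)⟩
  have hcd := mem_cent54.1 hc
  obtain ⟨h, hh, hhe⟩ := modelLoc.exists_φ (L.φ c)
  obtain ⟨hc', he⟩ := hHs h (Fi23.mem_Hs_of_commute hh.symm.eq)
  have h1 : L.φ ((ψ h)⁻¹ * c) = 1 := by
    rw [L.φ_mul hc'.inv_left hcd, L.φ_inv hc', he, hhe, inv_mul_cancel]
  rcases (L.φ_eq_one (hc'.inv_left.mul_left hcd)).1 h1 with e | e
  · exact ⟨h, inv_mul_eq_one.1 e⟩
  · exact ⟨h * Fi23.z0, by rw [map_mul, hz0, inv_mul_eq_iff_eq_mul.1 e]⟩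

end CfsgLib.Fi23Recog54
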