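import Mathlib
import Cfsg.Agent.ThreeTransp.U6Lines58
import Cfsg.Agent.ThreeTransp.M24Graph58

/-!
The local structure at an involution `d`: its centralizer maps onto a group of 3-transpositions
with kernel generated by `d`, the conjugates of `d` commuting with it going bijectively to the class.
-/

set_option autoImplicit false

namespace CfsgLib.Fi23Recog54

open Cfsg CfsgLib.ThreeTransp CfsgLib.ThreeTransp.Cover58

universe u v

variable {G : Type u} [Group G] {M : Type v} [Group M]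

/-- The conjugates of `d` other than `d` commuting with `d`. -/
abbrev Nd (d : G) : Set G := nbr (conjugatesOf d) d

/-- The local structure at `d`. -/
structure Loc (D : Set M) (d : G) where
  /-- the map of the centralizer -/
  f : ↥(Subgroup.centralizer ({d} : Set G)) →* M
  surj : Function.Surjective f
  sq : d * d = 1
  ne : d ≠ 1
  ker : ∀ k, f k = 1 ↔ (k : G) = 1 ∨ (k : G) = d
  mem : ∀ z : ↥(Subgroup.centralizer ({d} : Set G)), (z : G) ∈ Nd d → f z ∈ D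
  inj : ∀ z w : ↥(Subgroup.centralizer ({d} : Set G)), (z : G) ∈ Nd d → (w : G) ∈ Nd d → f z = f w → z = w
  onto : ∀ m ∈ D, ∃ z : ↥(Subgroup.centralizer ({d} : Set G)), (z : G) ∈ Nd d ∧ f z = m
  comm : ∀ z w : ↥(Subgroup.centralizer ({d} : Set G)), (z : G) ∈ Nd d → (w : G) ∈ Nd d → Commute (f z) (f w) → Commute z w

theorem mem_cent54 {d g : G} : g ∈ Subgroup.centralizer ({d} : Set G) ↔ Commute g d :=
  Subgroup.mem_centralizer_singleton_iff

theorem nd_conj {d : G} {c z : G} (hc : Commute c d) (hz : z ∈ Nd d) : c * z * c⁻¹ ∈ Nd d := by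
  obtain ⟨g, rfl⟩ := isConj_iff.1 hz.1
  have hcd : c * d * c⁻¹ = d := by rw [hc.eq, mul_inv_cancel_right]
  refine ⟨isConj_iff.2 ⟨c * g, by group⟩, fun e => hz.2.1 ?_, ?_⟩
  · exact mul_left_cancel (mul_right_cancel (e.trans hcd.symm))
  · have h := (commute_conj_iff' (g := c)).2 hz.2.2
    rwa [hcd] at h

theorem nbr_conjugates {d : G} (g : G) {a z : G} (hz : z ∈ nbr (conjugatesOf d) a) :
    g * z * g⁻¹ ∈ nbr (conjugatesOf d) (g * a * g⁻¹) := by
  obtain ⟨k, rfl⟩ := isConj_iff.1 hz.1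
  exact ⟨isConj_iff.2 ⟨g * k, by group⟩, fun e => hz.2.1 (mul_left_cancel (mul_right_cancel e)),
    commute_conj_iff'.2 hz.2.2⟩

namespace Loc

variable {D : Set M} {d : G} (L : Loc D d)

open Classical in
/-- The map on elements. -/
noncomputable def φ (z : G) : M := if h : Commute z d then L.f ⟨z, mem_cent54.2 h⟩ else 1

theorem φ_eq {z : G} (h : Commute z d) : L.φ z = L.f ⟨z, mem_cent54.2 h⟩ := by
  rw [φ, dif_pos h]

theorem φ_mul {z w : G} (hz : Commute z d) (hw : Commute w d) : L.φ (z * w) = L.φ z * L.φ w := by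
  rw [L.φ_eq hz, L.φ_eq hw, L.φ_eq (hz.mul_left hw), ← map_mul]
  rfl

theorem φ_inv {z : G} (hz : Commute z d) : L.φ z⁻¹ = (L.φ z)⁻¹ := by
  rw [L.φ_eq hz, L.φ_eq hz.inv_left, ← map_inv]
  rfl

theorem φ_conj {c z : G} (hc : Commute c d) (hz : Commute z d) :
    L.φ (c * z * c⁻¹) = L.φ c * L.φ z * (L.φ c)⁻¹ := by
  rw [L.φ_mul (hc.mul_left hz) hc.inv_left, L.φ_mul hc hz, L.φ_inv hc]

theorem exists_φ (m : M) : ∃ c, Commute c d ∧ L.φ c = m := by
  obtain ⟨⟨c, hc⟩, rfl⟩ := L.surj m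
  exact ⟨c, mem_cent54.1 hc, L.φ_eq (mem_cent54.1 hc)⟩

theorem φ_self : L.φ d = 1 := by
  rw [L.φ_eq (Commute.refl d)]
  exact (L.ker _).2 (Or.inr rfl)

theorem φ_eq_one {z : G} (hz : Commute z d) : L.φ z = 1 ↔ z = 1 ∨ z = d := by
  rw [L.φ_eq hz]
  exact L.ker _

theorem φ_mem {z : G} (hz : z ∈ Nd d) : L.φ z ∈ D := by
  rw [L.φ_eq hz.2.2.symm]
  exact L.mem _ hz

theorem φ_inj {z w : G} (hz : z ∈ Nd d) (hw : w ∈ Nd d) (h : L.φ z = L.φ w) : z = w := by
  rw [L.φ_eq hz.2.2.symm, L.φ_eq hw.2.2.symm] at h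
  exact congrArg Subtype.val (L.inj _ _ hz hw h)

theorem φ_onto {m : M} (hm : m ∈ D) : ∃ z ∈ Nd d, L.φ z = m := by
  obtain ⟨⟨z, hc⟩, hz, rfl⟩ := L.onto m hm
  exact ⟨z, hz, L.φ_eq (mem_cent54.1 hc)⟩

theorem φ_commute {z w : G} (hz : z ∈ Nd d) (hw : w ∈ Nd d) :
    Commute (L.φ z) (L.φ w) ↔ Commute z w := by
  have hzc := hz.2.2.symm
  have hwc := hw.2.2.symm
  constructor
  · intro h
    rw [L.φ_eq hzc, L.φ_eq hwc] at h
    exact congrArg Subtype.val (L.comm _ _ hz hw h).eq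
  · intro h
    show L.φ z * L.φ w = L.φ w * L.φ z
    rw [← L.φ_mul hzc hwc, ← L.φ_mul hwc hzc, h.eq]

theorem gmap : GMap (Nd d) D L.φ :=
  ⟨fun _ h => L.φ_mem h, fun _ hz _ hw h => L.φ_inj hz hw h, fun _ hm => L.φ_onto hm,
    fun _ hz _ hw => L.φ_commute hz hw⟩

theorem φ_nbr {a z : G} (ha : a ∈ Nd d) (hz : z ∈ Nd d) :
    L.φ z ∈ nbr D (L.φ a) ↔ z ∈ nbr (conjugatesOf d) a :=
  ⟨fun h => ⟨hz.1, fun e => h.2.1 (by rw [e]), (L.φ_commute ha hz).1 h.2.2⟩,
    fun h => ⟨L.φ_mem hz, fun e => h.2.1 (L.φ_inj hz ha e), (L.φ_commute ha hz).2 h.2.2⟩⟩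

include L in
/-- The members commuting with `d` form one class of the centralizer. -/
theorem exists_conj (hp : SingleClass D) {a b : G} (ha : a ∈ Nd d) (hb : b ∈ Nd d) :
    ∃ c, Commute c d ∧ c * a * c⁻¹ = b := by
  obtain ⟨m, hm⟩ := hp _ (L.φ_mem ha) _ (L.φ_mem hb)
  obtain ⟨c, hc, rfl⟩ := L.exists_φ m
  exact ⟨c, hc, L.φ_inj (nd_conj hc ha) hb (by rw [L.φ_conj hc ha.2.2.symm, hm])⟩

include L in
/-- Every member commuting with `d` is interchanged with it. -/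
theorem exists_swap (hp : SingleClass D) {a : G} (ha : a ∈ Nd d) :
    ∃ σ, σ * d * σ⁻¹ = a ∧ σ * a * σ⁻¹ = d := by
  obtain ⟨g, hg⟩ := isConj_iff.1 ha.1
  have h : g⁻¹ * d * g ∈ Nd d := by
    have h1 := nbr_conjugates (d := d) g⁻¹ (a := a) (z := d)
      ⟨mem_conjugatesOf_self, ha.2.1.symm, ha.2.2.symm⟩
    rwa [inv_inv, show g⁻¹ * a * g = d by rw [← hg]; group] at h1
  obtain ⟨c, hc, hca⟩ := L.exists_conj hp ha h
  refine ⟨g * c, ?_, ?_⟩
  · rw [show g * c * d * (g * c)⁻¹ = g * (c * d * c⁻¹) * g⁻¹ by group, hc.eq, mul_inv_cancel_right,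
      hg]
  · rw [show g * c * a * (g * c)⁻¹ = g * (c * a * c⁻¹) * g⁻¹ by group, hca]
    group

/-- The local structure followed by an automorphism of the image preserving the class. -/
noncomputable def twist (b : MulAut M) (hb : ∀ m, b m ∈ D ↔ m ∈ D) : Loc D d where
  f := b.toMonoidHom.comp L.f
  surj := b.surjective.comp L.surj
  sq := L.sq
  ne := L.ne
  ker k := (show b (L.f k) = 1 ↔ L.f k = 1 from b.map_eq_one_iff).trans (L.ker k)
  mem z hz := (hb _).2 (L.mem z hz)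
  inj z w hz hw h := L.inj z w hz hw (b.injective h)
  onto m hm := by
    obtain ⟨z, hz, e⟩ := L.onto (b.symm m) ((hb _).1 (by rwa [b.apply_symm_apply]))
    exact ⟨z, hz, by show b (L.f z) = m; rw [e, b.apply_symm_apply]⟩
  comm z w hz hw h := L.comm z w hz hw (by
    have h' := h.map b.symm.toMonoidHom
    simpa using h')

theorem twist_φ (b : MulAut M) (hb : ∀ m, b m ∈ D ↔ m ∈ D) {z : G} (hz : Commute z d) :
    (L.twist b hb).φ z = b (L.φ z) := by
  rw [Loc.φ_eq _ hz, L.φ_eq hz]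
  rfl

end Loc

end CfsgLib.Fi23Recog54
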