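import Cfsg.Agent.Fi23Recog54.Setup
import Cfsg.Agent.Fi23Recog54.Hom
import Cfsg.Agent.Fi23Recog54.Embedded

/-!
A group with an involution whose centralizer is a perfect double cover of Fi22, not weakly closed
there, is isomorphic to the presented Fi23.
-/

set_option autoImplicit false

namespace CfsgLib.Fi23Recog54

open Cfsg CfsgLib.ThreeTransp CfsgLib.FischerRecog58 CfsgLib.CosetEnum

universe u

variable {G : Type u} [Group G] [Finite G] {d : G}

theorem exists_embedded {f : ↥(Subgroup.centralizer ({d} : Set G)) →* Spor.Fi22}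
    (hc : CoverData94 d f) : Nonempty (Embedded d) := by
  obtain ⟨L₀, hL₀⟩ := exists_loc hc
  obtain ⟨L, hL⟩ := exists_traceProp L₀
  have hlift : ∀ z, L.f z * L.f z = 1 → z * z = 1 := by
    intro z hz
    rw [← map_mul] at hz
    rcases (L.ker _).1 hz with h | h
    · exact Subtype.ext h
    · exact absurd h (hc.nosq _)
  obtain ⟨ψ, hinj, hz0, hcent, hφ⟩ := exists_hom L hL hlift
  refine ⟨⟨ψ, hinj, hz0, hcent, fun z hz hzd => ?_⟩⟩
  by_cases e : z = d
  · exact ⟨Fi23.z0, mem_conjugatesOf_self, e ▸ hz0⟩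
  have hzn : z ∈ Nd d := ⟨hz, e, hzd.symm⟩
  obtain ⟨hw, hwe⟩ := theta_spec L hzn
  obtain ⟨h1, h2⟩ := hφ _ hw.2.2.symm
  have hconj : IsConj d (ψ (theta L z)) := by
    obtain ⟨g, hg⟩ := isConj_iff.1 hw.1
    exact isConj_iff.2 ⟨ψ g, by rw [← hg, map_mul, map_mul, map_inv, hz0]⟩
  have hne : ψ (theta L z) ≠ d := fun h => hw.2.1 (hinj (h.trans hz0.symm))
  exact ⟨theta L z, hw.1, L.φ_inj ⟨hconj, hne, h1.symm⟩ hzn (h2.trans hwe)⟩

/-- The recognition. -/
theorem exists_iso (h23 : IsOfTypeM23 Spor.Fi23 cls23)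
    {f : ↥(Subgroup.centralizer ({d} : Set G)) →* Spor.Fi22} (hc : CoverData94 d f) :
    ∃ e : Spor.Fi23 ≃* G, e Fi23.z0 = d := by
  obtain ⟨E⟩ := exists_embedded hc
  exact ⟨MulEquiv.ofBijective E.ψ ⟨E.inj, E.surjective h23⟩, E.map_z0⟩

theorem hom_of_equiv (hdd : d * d = 1) (hd1 : d ≠ 1)
    (hperf : commutator ↥(Subgroup.centralizer ({d} : Set G)) = ⊤)
    (hnwc : ∃ g : G, g * d * g⁻¹ ∈ Subgroup.centralizer ({d} : Set G) ∧ g * d * g⁻¹ ≠ d)
    [((Subgroup.zpowers d).subgroupOf (Subgroup.centralizer ({d} : Set G))).Normal]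
    (e : (↥(Subgroup.centralizer ({d} : Set G)) ⧸
      (Subgroup.zpowers d).subgroupOf (Subgroup.centralizer ({d} : Set G))) ≃* Spor.Fi22) :
    ∃ f : ↥(Subgroup.centralizer ({d} : Set G)) →* Spor.Fi22, CoverData94 d f := by
  refine ⟨e.toMonoidHom.comp (QuotientGroup.mk' _), coverData54 hdd hd1
    (e.surjective.comp (QuotientGroup.mk'_surjective _)) (fun k => ?_) hperf hnwc⟩
  show e (QuotientGroup.mk k) = 1 ↔ _
  rw [e.map_eq_one_iff, QuotientGroup.eq_one_iff, Subgroup.mem_subgroupOf]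
  constructor
  · intro hk
    obtain ⟨n, hn⟩ := Subgroup.mem_zpowers_iff.1 hk
    rw [← hn]
    rcases Int.even_or_odd n with ⟨m, hm⟩ | ⟨m, hm⟩ <;> subst hm
    · left; rw [← two_mul, zpow_mul, zpow_two, hdd, one_zpow]
    · right; rw [zpow_add_one, zpow_mul, zpow_two, hdd, one_zpow, one_mul]
  · rintro (h | h) <;> rw [h]
    · exact one_mem _
    · exact Subgroup.mem_zpowers d

end CfsgLib.Fi23Recog54
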