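import Cfsg.Agent.ThreeTransp.OutClass58
import Cfsg.Agent.ThreeTransp.U6Lines58
import Cfsg.Agent.FischerRecog58.RModel
import Cfsg.Agent.Fi22Out.Main

/-!
The presented Fi22: an automorphism fixing the first generator that is not inner on the members
commuting with it.
-/

set_option autoImplicit false

namespace CfsgLib.Fi23Recog54

open Cfsg CfsgLib.ThreeTransp CfsgLib.ThreeTransp.Cover58 CfsgLib.FischerRecog58 CfsgLib.CosetEnum

theorem lineSet22 : LineSet D22 D22 := by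
  have := Fi22.finite_fi22
  exact m22_lineSet ttg22 type22

theorem lineSet22_nbr {a : Spor.Fi22} (ha : a ∈ D22) : LineSet D22 (nbr D22 a) := by
  have := Fi22.finite_fi22
  exact m22_lineSet_nbr ttg22 type22 ha

theorem center22' : Subgroup.center Spor.Fi22 = ⊥ := type22.1

theorem single22 : SingleClass D22 := primitive22.1

theorem a0_eq : Fi22.U6.a0 = Fi22Out.a0 := by
  rw [Fi22.U6.a0, Fi22Out.a0, Fi22Out.g9_gen (by norm_num)]

theorem commute_a0_mem {g : Spor.Fi22} (h : Commute g Fi22.U6.a0) :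
    g ∈ Subgroup.closure (nbr D22 Fi22.U6.a0) := by
  have := Fi22.finite_fi22
  rw [← m22_centralizer_eq ttg22 primitive22 type22 a0_mem, Subgroup.mem_centralizer_singleton_iff]
  exact h.eq

/-- Automorphisms preserve the class. -/
theorem aut_mem22 (b : MulAut Spor.Fi22) (m : Spor.Fi22) : b m ∈ D22 ↔ m ∈ D22 := by
  have key : ∀ (b : MulAut Spor.Fi22) m, m ∈ D22 → b m ∈ D22 := by
    intro b m hm
    obtain ⟨g, rfl⟩ := mem_D22.1 hm
    obtain ⟨q, hq⟩ := Fi22Out.exists_aut_tran b Fi22.P0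
    rw [Fi22Out.tran_zero, ← a0_eq, Fi22Out.tran, ← a0_eq] at hq
    rw [map_mul, map_mul, map_inv, hq]
    exact mem_D22.2 ⟨b g * Fi22Out.move q, by group⟩
  refine ⟨fun h => ?_, key b m⟩
  have := key b.symm _ h
  rwa [b.symm_apply_apply] at this

theorem aut_gmap {b : MulAut Spor.Fi22} : GMap D22 D22 b :=
  ⟨fun x hx => (aut_mem22 b x).2 hx, b.injective.injOn,
    fun y hy => ⟨b.symm y, (aut_mem22 b _).1 (by rwa [b.apply_symm_apply]), b.apply_symm_apply y⟩,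
    fun x _ y _ => by
      rw [commute_iff_eq, commute_iff_eq, ← map_mul, ← map_mul, b.injective.eq_iff]⟩

theorem aut_nbr {b : MulAut Spor.Fi22} (hb : b Fi22.U6.a0 = Fi22.U6.a0) :
    GMap (nbr D22 Fi22.U6.a0) (nbr D22 Fi22.U6.a0) b := by
  have h := (aut_gmap (b := b)).restrict (Set.Subset.refl D22) (Set.Subset.refl D22) a0_mem
  rw [hb, Set.inter_eq_right.2 (nbr_subset D22 Fi22.U6.a0)] at h
  exact h

/-- An automorphism fixing the generator that is inner on the members commuting with it is inner. -/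
theorem inn_of_inner_nbr {b : MulAut Spor.Fi22} (hb : b Fi22.U6.a0 = Fi22.U6.a0)
    (hI : IsInnerMap (nbr D22 Fi22.U6.a0) b) : b ∈ Cfsg.Inn Spor.Fi22 := by
  have := Fi22.finite_fi22
  obtain ⟨k, hk, hkz⟩ := hI
  have hka : Commute k Fi22.U6.a0 := commute_of_mem_closure_nbr hk
  have hid : GMap D22 D22 id :=
    ⟨fun _ h => h, fun _ _ _ _ e => e, fun y hy => ⟨y, hy, rfl⟩, fun _ _ _ _ => Iff.rfl⟩
  obtain ⟨b', hb'⟩ : ∃ b', (MulAut.conj k)⁻¹ * b = b' := ⟨_, rfl⟩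
  have hb'e : ∀ m, b' m = k⁻¹ * b m * k := fun m => by
    rw [← hb', MulAut.mul_apply, MulAut.conj_inv_apply]
  have hfix : b' Fi22.U6.a0 = Fi22.U6.a0 := by rw [hb'e, hb, mul_assoc, hka.symm.eq, inv_mul_cancel_left]
  have hag : ∀ z ∈ D22, z ∈ nbr D22 Fi22.U6.a0 → b' z = z := fun z _ hz => by rw [hb'e, hkz z hz]; group
  have hnt : ∀ m ∈ D22, ¬ Commute Fi22.U6.a0 m → ∃ w ∈ D22, w ∈ nbr D22 m ∧ ¬ Commute Fi22.U6.a0 w := by
    intro m hm hnc
    by_contra hcon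
    push Not at hcon
    have hsub : nbr D22 m ⊆ nbr D22 m ∩ nbr D22 Fi22.U6.a0 := fun w hw =>
      ⟨hw, hw.1, fun e => hnc ((e ▸ hw.2.2).symm), hcon w hw.1 hw⟩
    have h1 := Set.ncard_le_ncard hsub (Set.toFinite _)
    rw [m22_ncard_nbr ttg22 primitive22 type22 hm,
      (m22_level ttg22 type22).card_nc m Fi22.U6.a0 hm a0_mem fun h => hnc h.symm] at h1
    omega
  have hall : ∀ c ∈ Cfsg.Inn Spor.Fi22, (∀ m ∈ D22, b' m = c m) → b ∈ Cfsg.Inn Spor.Fi22 := by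
    intro c hc h
    have : b' = c := MulEquiv.toMonoidHom_injective
      (MonoidHom.eq_of_eqOn_dense ttg22.2.2 fun m hm => h m hm)
    rw [← hb'] at this
    rw [show b = MulAut.conj k * c by rw [← this, mul_inv_cancel_left]]
    exact mul_mem ⟨k, rfl⟩ hc
  have hcases : ∀ m ∈ D22, Commute Fi22.U6.a0 m → b' m = m := fun m hm hc => by
    by_cases e : m = Fi22.U6.a0
    · rw [e, hfix]
    · exact hag m hm ⟨hm, e, hc⟩
  rcases gmap_dichotomy lineSet22 lineSet22 hid aut_gmap a0_mem rfl hfix hag hnt with h | h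
  · refine hall 1 (one_mem _) fun m hm => ?_
    by_cases hc : Commute Fi22.U6.a0 m
    · exact hcases m hm hc
    · exact h m hm hc
  · refine hall (MulAut.conj Fi22.U6.a0) ⟨_, rfl⟩ fun m hm => ?_
    rw [MulAut.conj_apply, tt_inv set22 a0_mem]
    by_cases hc : Commute Fi22.U6.a0 m
    · rw [hcases m hm hc, conj_of_commute set22 a0_mem hc]
    · exact h m hm hc

/-- An outer automorphism fixing the generator. -/
theorem exists_outer22 : ∃ b : MulAut Spor.Fi22, b Fi22.U6.a0 = Fi22.U6.a0 ∧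
    ¬ IsInnerMap (nbr D22 Fi22.U6.a0) b ∧ IsInnerMap (nbr D22 Fi22.U6.a0) fun z => b (b z) := by
  have := Fi22.finite_fi22
  obtain ⟨b₀, hb₀⟩ := Fi22Out.exists_not_inner
  obtain ⟨g, hg⟩ := single22 _ ((aut_mem22 b₀ _).2 a0_mem) _ a0_mem
  obtain ⟨b, hb⟩ : ∃ b, MulAut.conj g * b₀ = b := ⟨_, rfl⟩
  have hfix : b Fi22.U6.a0 = Fi22.U6.a0 := by rw [← hb, MulAut.mul_apply, MulAut.conj_apply, hg]
  have hbn : b ∉ Cfsg.Inn Spor.Fi22 := by
    rw [← hb]
    exact fun h => hb₀ ((Subgroup.mul_mem_cancel_left (Cfsg.Inn _) (MonoidHom.mem_range.2 ⟨g, rfl⟩)).1 h)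
  refine ⟨b, hfix, fun hI => hbn (inn_of_inner_nbr hfix hI), ?_⟩
  obtain ⟨w, hw⟩ : b * b ∈ Cfsg.Inn Spor.Fi22 := m22_out_two ttg22 type22 b b hbn hbn
  have hwz : ∀ z, b (b z) = w * z * w⁻¹ := fun z => by
    rw [← MulAut.mul_apply, ← hw]
    rfl
  refine ⟨w, commute_a0_mem ?_, fun z _ => hwz z⟩
  have h := hwz Fi22.U6.a0
  rw [hfix, hfix] at h
  exact mul_inv_eq_iff_eq_mul.1 h.symm

theorem nbr_out_six : ∀ {X : Set Spor.Fi22}, X = nbr D22 Fi22.U6.a0 →
    ∃ (Q : Type) (_ : Group Q) (c : (Spor.Fi22 → Spor.Fi22) → Q), Nat.card Q = 6 ∧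
      ∀ f, GMap X X f → (c f = 1 ↔ IsInnerMap X f) ∧
        ∀ g, GMap X X g → c (fun z => f (g z)) = c f * c g := by
  rintro X rfl
  have := Fi22.finite_fi22
  have hncp := noTwins_noncentral ttg22 (m22_noTwins ttg22 type22) type22.1 a0_mem
  obtain ⟨ι, hι, -⟩ := gmap_barPt ttg22 hncp (Set.Subset.refl (nbr D22 Fi22.U6.a0))
  have LE := lineSet_push ttg22 hncp Set.Subset.rfl (lineSet22_nbr a0_mem)
  rw [barOf_nbr_univ] at hι LE
  obtain ⟨F, _, _, hF, ⟨e6⟩⟩ := m22_quot_iso ttg22 type22 a0_mem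
  obtain ⟨hZ, hsix⟩ := card_out_psu62 hF e6
  obtain ⟨c, hc⟩ := exists_outClass (lineSet22_nbr a0_mem) LE hZ hι
  exact ⟨_, inferInstance, c, hsix, hc⟩

end CfsgLib.Fi23Recog54
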