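import Cfsg.Agent.Fi23Recog54.Loc
import Cfsg.Agent.Fi23Recog54.Outer
import Cfsg.Agent.Fi23Out54.Main
import Cfsg.Agent.FischerRecog58.RModel

/-!
The local structure of the presented Fi23 at `z0`: the centralizer maps onto the presented Fi22.
-/

set_option autoImplicit false
set_option maxRecDepth 8000

namespace CfsgLib.Fi23Recog54

open Cfsg CfsgLib.ThreeTransp CfsgLib.ThreeTransp.Cover58 CfsgLib.FischerRecog58 CfsgLib.CosetEnum
open CfsgLib.Fi23Out54 (tran Pt22)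

/-- The centralizer of `z0`. -/
abbrev C0 : Type := ↥(Subgroup.centralizer ({Fi23.z0} : Set Spor.Fi23))

theorem exists_gamma (h : C0) : ∃ q : Fi23.Gamma, Fi23.toPts q = Fi23.pi h := by
  have hh : (h : Spor.Fi23) ∈ Fi23.Hs := Fi23.centralizer_z0 ▸ h.2
  have hm : Fi23.pi h ∈ Fi23.toPts.range := Fi23.toPts_range ▸ Subgroup.mem_map_of_mem Fi23.pi hh
  exact hm

theorem exists_im (h : C0) :
    ∃ g : Spor.Fi22, ∀ i, Fi23.pi h (Fi23.emb i) = Fi23.emb (Fi22.pi g i) := by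
  obtain ⟨q, hq⟩ := exists_gamma h
  have hm : Fi23.toSub q ∈ Fi22.pi.range := Fi23.toSub_range ▸ ⟨q, rfl⟩
  obtain ⟨g, hg⟩ := hm
  exact ⟨g, fun i => by rw [← hq, hg]; exact Fi23.induces_of_mem q.2 i⟩

theorem im_unique {g g' : Spor.Fi22}
    (h : ∀ i, Fi23.emb (Fi22.pi g i) = Fi23.emb (Fi22.pi g' i)) : g = g' :=
  Fi22.pi_injective (Equiv.ext fun i => Fi23.emb_injective (h i))

/-- The map of the centralizer of `z0` onto Fi22. -/
noncomputable def fH : C0 →* Spor.Fi22 where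
  toFun h := (exists_im h).choose
  map_one' := im_unique fun i => by
    rw [← (exists_im 1).choose_spec i, OneMemClass.coe_one, map_one, map_one]
    rfl
  map_mul' a b := im_unique fun i => by
    rw [← (exists_im (a * b)).choose_spec i, Subgroup.coe_mul, map_mul, Equiv.Perm.mul_apply,
      (exists_im b).choose_spec i, (exists_im a).choose_spec, map_mul, Equiv.Perm.mul_apply]

theorem fH_spec (h : C0) (i : Pt22) : Fi23.pi h (Fi23.emb i) = Fi23.emb (Fi22.pi (fH h) i) :=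
  (exists_im h).choose_spec i

theorem fH_eq {h : C0} {g : Spor.Fi22}
    (hg : ∀ i, Fi23.pi h (Fi23.emb i) = Fi23.emb (Fi22.pi g i)) : fH h = g :=
  im_unique fun i => by rw [← fH_spec, hg]

theorem mem_C0 {h : Spor.Fi23} (hh : h ∈ Fi23.Hs) :
    h ∈ Subgroup.centralizer ({Fi23.z0} : Set Spor.Fi23) := by
  rwa [Fi23.centralizer_z0]

theorem fH_surjective : Function.Surjective fH := fun g => by
  obtain ⟨h, hh, hi⟩ := Fi23Out54.lift22 g
  exact ⟨⟨h, mem_C0 hh⟩, fH_eq hi⟩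

theorem fH_ker (k : C0) : fH k = 1 ↔ (k : Spor.Fi23) = 1 ∨ (k : Spor.Fi23) = Fi23.z0 := by
  constructor
  · intro hk
    obtain ⟨q, hq⟩ := exists_gamma k
    have h2 : Fi23.toSub q = 1 := Equiv.ext fun i => Fi23.emb_injective (by
      show Fi23.emb (q.1.2 i) = Fi23.emb i
      rw [← Fi23.induces_of_mem q.2 i, show q.1.1 = Fi23.pi k from hq, fH_spec, hk, map_one,
        Equiv.Perm.one_apply])
    refine (Fi23.eq_one_or_zW h2).imp (fun h => Fi23.pi_injective ?_) fun h => Fi23.pi_injective ?_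
    · rw [← hq, map_one]
      exact h
    · rw [← hq, Fi23.z0, Fi23.pi_gword _ Fi23.zW_lt10]
      exact h
  · intro h
    refine fH_eq fun i => ?_
    rcases h with h | h
    · rw [h, map_one, map_one]
      rfl
    · have e := Fi23.induces_of_mem (Fi23.pair_mem Fi23.zW_lt) i
      rw [Fi23.zW_sub] at e
      rw [h, Fi23.z0, Fi23.pi_gword _ Fi23.zW_lt10, map_one]
      exact e

theorem mem_class23 {x : Spor.Fi23} : x ∈ conjugatesOf Fi23.z0 ↔ ∃ p, tran p = x := by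
  constructor
  · intro h
    obtain ⟨g, rfl⟩ := isConj_iff.1 h
    exact ⟨Fi23.pi g Fi23.P0, Fi23Out54.tran_eq rfl⟩
  · rintro ⟨p, rfl⟩
    exact isConj_iff.2 ⟨Fi23Out54.move p, rfl⟩

theorem mem_nd23 {x : Spor.Fi23} : x ∈ Nd Fi23.z0 ↔ ∃ i, tran (Fi23.emb i) = x := by
  constructor
  · rintro ⟨h1, h2, h3⟩
    obtain ⟨p, rfl⟩ := mem_class23.1 h1
    rw [← Fi23Out54.tran_zero, Fi23Out54.commute_tran_iff] at h3
    rcases h3 with h3 | h3
    · exact absurd (by rw [h3, Fi23Out54.tran_zero]) h2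
    · obtain ⟨i, rfl⟩ := Fi23Out54.exists_emb ((Fi23Out54.adj_zero p).1 h3)
      exact ⟨i, rfl⟩
  · rintro ⟨i, rfl⟩
    refine ⟨mem_class23.2 ⟨_, rfl⟩, fun h => ?_, ?_⟩
    · rw [← Fi23Out54.tran_zero] at h
      have e := congrArg (fun j : Fi23Out54.Pt => Fi23.Tab.labH j) (Fi23Out54.tran_injective h)
      simp only [Fi23Out54.labH_emb, Fi23.pt_val, Fi23.labH_zero] at e
      exact absurd e (by norm_num)
    · rw [← Fi23Out54.tran_zero, Fi23Out54.commute_tran_iff]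
      exact Or.inr ((Fi23Out54.adj_zero _).2 (Fi23Out54.labH_emb i))

theorem gen23_mem {x : ℕ} (hx : x < 9) : Fi23.gen x ∈ Fi23.Hs := by
  have := Fi23.g10_mem_Hs hx
  rwa [Fi23.g10, letterVal_lt Fi23.gen (by omega)] at this

theorem fH_gen {x : ℕ} (hx : x < 9) : fH ⟨Fi23.gen x, mem_C0 (gen23_mem hx)⟩ = Fi22.gen x :=
  fH_eq fun i => by
    show Fi23.pi (Fi23.gen x) (Fi23.emb i) = _
    rw [Fi23.pi_gen (by omega), Fi22.pi_gen hx]
    exact Fi23.induces_letter hx i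

theorem tran_mem_nd (i : Pt22) : tran (Fi23.emb i) ∈ Nd Fi23.z0 := mem_nd23.2 ⟨i, rfl⟩

theorem fH_tran (i : Pt22) :
    fH ⟨tran (Fi23.emb i), mem_cent54.2 (tran_mem_nd i).2.2.symm⟩ = Fi22Out.tran i := by
  obtain ⟨c, hc⟩ := fH_surjective (Fi22Out.move i)
  have h0 : fH ⟨tran (Fi23.emb Fi22.P0), mem_cent54.2 (tran_mem_nd _).2.2.symm⟩ = Fi22Out.a0 := by
    rw [Fi22Out.a0, ← fH_gen (x := 0) (by norm_num)]
    congr 2
    rw [← Fi23Out54.gpt_zero, ← Fi23Out54.gen_tran (by norm_num)]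
  rw [Fi22Out.tran, ← hc, ← h0, ← map_inv, ← map_mul, ← map_mul]
  congr 2
  show tran (Fi23.emb i) = c * tran (Fi23.emb Fi22.P0) * (c : Spor.Fi23)⁻¹
  rw [Fi23Out54.tran_conj, fH_spec, hc, Fi22Out.move_spec]

theorem fH_nd {z : C0} (hz : (z : Spor.Fi23) ∈ Nd Fi23.z0) :
    ∃ i, (z : Spor.Fi23) = tran (Fi23.emb i) ∧ fH z = Fi22Out.tran i := by
  obtain ⟨i, hi⟩ := mem_nd23.1 hz
  exact ⟨i, hi.symm, by rw [← fH_tran i]; congr 2; exact Subtype.ext hi.symm⟩

theorem tran22_mem (i : Pt22) : Fi22Out.tran i ∈ D22 :=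
  mem_D22.2 ⟨Fi22Out.move i, by rw [a0_eq]; rfl⟩

theorem exists_tran22 {m : Spor.Fi22} (hm : m ∈ D22) : ∃ i, Fi22Out.tran i = m := by
  obtain ⟨g, rfl⟩ := mem_D22.1 hm
  exact ⟨Fi22.pi g Fi22.P0, by rw [← Fi22Out.tran_conj, Fi22Out.tran_zero, a0_eq]⟩

/-- The local structure of the model. -/
noncomputable def modelLoc : Loc D22 Fi23.z0 where
  f := fH
  surj := fH_surjective
  sq := Fi23.z0_sq
  ne := Fi23.z0_ne
  ker := fH_ker
  mem z hz := by
    obtain ⟨i, -, e⟩ := fH_nd hz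
    rw [e]
    exact tran22_mem i
  inj z w hz hw h := by
    obtain ⟨i, ei, e⟩ := fH_nd hz
    obtain ⟨j, ej, e'⟩ := fH_nd hw
    rw [e, e'] at h
    exact Subtype.ext (by rw [ei, ej, Fi22Out.tran_injective h])
  onto m hm := by
    obtain ⟨i, rfl⟩ := exists_tran22 hm
    exact ⟨⟨_, mem_cent54.2 (tran_mem_nd i).2.2.symm⟩, tran_mem_nd i, fH_tran i⟩
  comm z w hz hw h := by
    obtain ⟨i, ei, e⟩ := fH_nd hz
    obtain ⟨j, ej, e'⟩ := fH_nd hw
    rw [e, e'] at h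
    refine Subtype.ext ?_
    show (z : Spor.Fi23) * w = w * z
    rw [ei, ej]
    refine ((Fi23Out54.commute_tran_iff _ _).2 ?_).eq
    by_cases hij : j = i
    · exact Or.inl (by rw [hij])
    · exact Or.inr ((Fi23Out54.adj_emb i j).2 ((Fi22Out.nb_iff_commute i j).2 ⟨h, hij⟩))

theorem modelLoc_φ_tran (i : Pt22) : modelLoc.φ (tran (Fi23.emb i)) = Fi22Out.tran i := by
  rw [modelLoc.φ_eq (tran_mem_nd i).2.2.symm]
  exact fH_tran i

theorem modelLoc_φ_gen {x : ℕ} (hx : x < 9) : modelLoc.φ (Fi23.gen x) = Fi22.gen x := by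
  rw [modelLoc.φ_eq (mem_cent54.1 (mem_C0 (gen23_mem hx)))]
  exact fH_gen hx

end CfsgLib.Fi23Recog54
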