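import Cfsg.Agent.Fi23Recog54.Loc
import Cfsg.Agent.Fi23Recog54.Outer
import Cfsg.Agent.ThreeTransp.M22CoverCount94
import Cfsg.Agent.ThreeTransp.CoverLift58

/-!
The hypotheses on the centralizer of `d` give the data of the double cover, and the conjugates of
`d` commuting with it go bijectively to the class.
-/

set_option autoImplicit false

namespace CfsgLib.Fi23Recog54

open Cfsg CfsgLib.ThreeTransp CfsgLib.ThreeTransp.Cover58

universe u v

section count

variable {G : Type u} [Group G] [Finite G] {M : Type v} [Group M] [Finite M] {d : G}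
  {f : ↥(Subgroup.centralizer ({d} : Set G)) →* M} {D : Set M}

/-- The members have one lift conjugate to `d`, the products of two or three have none. -/
theorem cover_fib54 (hc : CoverData94 d f) (hG : IsThreeTranspositionGroup D)
    (hp : IsPrimitiveUnderConj D) (h22 : IsOfTypeM22 M D) :
    (∀ b ∈ D, coverFib94 d f b = 1) ∧
      ∀ z : ↥(Subgroup.centralizer ({d} : Set G)), IsConj d (z : G) → f z = 1 ∨ f z ∈ D := by
  classical
  have := Fintype.ofFinite M
  have hD := hG.1
  have hn := m22_noTwins hG h22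
  obtain ⟨B, hB, hne, -, -⟩ := cover_sylow94 hc hG hp h22 default
  have hcount := cover_count94 hc hG hp h22 hB hne
  obtain ⟨O, hO⟩ : ∃ O : Set G, {x : G | x ∈ coverA94 f B ∧ IsConj d x} = O := ⟨_, rfl⟩
  rw [hO] at hcount
  have hmemO : ∀ z : ↥(Subgroup.centralizer ({d} : Set G)), f z ∈ Subgroup.closure B →
      IsConj d (z : G) → (z : G) ∈ O := fun z hz hzd =>
    hO ▸ ⟨mem_coverA94.2 ⟨z.2, hz⟩, hzd⟩
  obtain ⟨Bf, hBf⟩ : ∃ Bf : Finset M, Finset.univ.filter (· ∈ B) = Bf := ⟨_, rfl⟩
  have mBf : ∀ x, x ∈ Bf ↔ x ∈ B := fun x => by simp [← hBf]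
  have cBf : Bf.card = 22 := by
    rw [← m22_clique_card hG hp h22 hB hne, ← Set.ncard_coe_finset]
    congr 1; ext x; simp [mBf]
  -- a set of products with lifts is small
  have hsmall : ∀ S : Finset M, (∀ e ∈ S, e ∈ Subgroup.closure B) →
      (∀ e ∈ S, coverFib94 d f e ≠ 0) → S.card ≤ 23 := by
    intro S hS hS'
    have hch : ∀ e : S, ∃ z : ↥(Subgroup.centralizer ({d} : Set G)), f z = e ∧ IsConj d (z : G) :=
      fun e => Set.nonempty_of_ncard_ne_zero (hS' e e.2)
    choose z hz hzd using hch
    rw [← hcount, ← Fintype.card_coe S, ← Nat.card_eq_fintype_card, ← Nat.card_coe_set_eq O]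
    refine Nat.card_le_card_of_injective
      (fun e => ⟨(z e : G), hmemO _ (by rw [hz]; exact hS _ e.2) (hzd e)⟩) fun e e' h => ?_
    have h' : z e = z e' := Subtype.ext (congrArg Subtype.val h : _)
    exact Subtype.ext (by rw [← hz e, ← hz e', h'])
  have hfact2 : ∀ t ∈ Bf.powersetCard 2, IsFact D 2 t.toList.prod t.toList := by
    intro t ht
    obtain ⟨hts, htc⟩ := Finset.mem_powersetCard.1 ht
    exact ⟨Finset.nodup_toList _, by rw [Finset.length_toList, htc],
      fun x hx => hB.sub ((mBf x).1 (hts (Finset.mem_toList.1 hx))),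
      fun x hx y hy => hB.comm _ ((mBf x).1 (hts (Finset.mem_toList.1 hx))) _
        ((mBf y).1 (hts (Finset.mem_toList.1 hy))), rfl⟩
  have hinj : ∀ g : M, Set.InjOn (fun t : Finset M => g * t.toList.prod)
      (Bf.powersetCard 2 : Set (Finset M)) := by
    intro g s hs t ht h
    have h' : s.toList.prod = t.toList.prod := mul_left_cancel h
    ext x
    have := pair_unique hD hn (hfact2 s hs) (h'.symm ▸ hfact2 t ht) x
    rwa [Finset.mem_toList, Finset.mem_toList] at this
  have hclB : ∀ t ∈ Bf.powersetCard 2, t.toList.prod ∈ Subgroup.closure B := fun t ht =>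
    list_prod_mem fun x hx => Subgroup.subset_closure
      ((mBf x).1 ((Finset.mem_powersetCard.1 ht).1 (Finset.mem_toList.1 hx)))
  have hfib : ∀ (m : ℕ) (x y : M) (l l' : List M), 1 ≤ m → m ≤ 3 → IsFact D m x l →
      IsFact D m y l' → coverFib94 d f y = coverFib94 d f x := by
    intro m x y l l' h1 h3 hl hl'
    obtain ⟨g, rfl⟩ := m22_fact_conj hG hp h22 h1 h3 hl hl'
    exact hc.fib_conj x g
  obtain ⟨a₀, ha₀⟩ := id hne
  have hlong : ∀ (m : ℕ) (x : M) (l : List M), 2 ≤ m → m ≤ 3 → IsFact D m x l →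
      coverFib94 d f x = 0 := by
    intro m x l h2 h3 hl
    by_contra h0
    interval_cases m
    · have h := hsmall ((Bf.powersetCard 2).image fun t => 1 * t.toList.prod)
        (fun e he => by
          obtain ⟨t, ht, rfl⟩ := Finset.mem_image.1 he
          rw [one_mul]; exact hclB t ht)
        (fun e he => by
          obtain ⟨t, ht, rfl⟩ := Finset.mem_image.1 he
          rw [one_mul, hfib 2 x _ l _ (by norm_num) (by norm_num) hl (hfact2 t ht)]
          exact h0)
      rw [Finset.card_image_of_injOn (hinj 1), Finset.card_powersetCard, cBf] at h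
      exact absurd h (by decide)
    · have hsub : (Bf.erase a₀).powersetCard 2 ⊆ Bf.powersetCard 2 :=
        Finset.powersetCard_mono (Finset.erase_subset _ _)
      have h := hsmall (((Bf.erase a₀).powersetCard 2).image fun t => a₀ * t.toList.prod)
        (fun e he => by
          obtain ⟨t, ht, rfl⟩ := Finset.mem_image.1 he
          exact mul_mem (Subgroup.subset_closure ha₀) (hclB t (hsub ht)))
        (fun e he => by
          obtain ⟨t, ht, rfl⟩ := Finset.mem_image.1 he
          obtain ⟨f1, f2, f3, f4, -⟩ := hfact2 t (hsub ht)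
          have hat : ∀ y ∈ t.toList, y ∈ B := fun y hy => (mBf y).1
            ((Finset.mem_powersetCard.1 (hsub ht)).1 (Finset.mem_toList.1 hy))
          have hl' : IsFact D 3 (a₀ * t.toList.prod) (a₀ :: t.toList) := by
            refine ⟨List.nodup_cons.2 ⟨fun h => ?_, f1⟩, by rw [List.length_cons, f2], ?_, ?_,
              List.prod_cons⟩
            · exact (Finset.mem_erase.1 ((Finset.mem_powersetCard.1 ht).1 (Finset.mem_toList.1 h))).1
                rfl
            · intro y hy
              rcases List.mem_cons.1 hy with rfl | hy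
              · exact hB.sub ha₀
              · exact f3 y hy
            · intro y hy z hz
              have key : ∀ y ∈ a₀ :: t.toList, y ∈ B := fun y hy => by
                rcases List.mem_cons.1 hy with rfl | hy
                · exact ha₀
                · exact hat y hy
              exact hB.comm y (key y hy) z (key z hz)
          rw [hfib 3 x _ l _ (by norm_num) le_rfl hl hl']
          exact h0)
      rw [Finset.card_image_of_injOn ((hinj a₀).mono (Finset.coe_subset.2 hsub)),
        Finset.card_powersetCard, Finset.card_erase_of_mem ((mBf a₀).2 ha₀), cBf] at h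
      exact absurd h (by decide)
  have hsingle : ∀ b ∈ D, IsFact D 1 b [b] := fun b hb =>
    ⟨by simp, rfl, by simp [hb], by simp, by simp⟩
  -- every conjugate is over a member
  have hclass : ∀ z : ↥(Subgroup.centralizer ({d} : Set G)), IsConj d (z : G) → f z ≠ 1 → f z ∈ D := by
    intro z hz h1
    have hsq : f z * f z = 1 := by
      obtain ⟨g, hg⟩ := isConj_iff.1 hz
      rw [← map_mul, show z * z = 1 from Subtype.ext (by
        show (z : G) * z = 1
        rw [← hg, conj_mul, hc.sq, mul_one, mul_inv_cancel]), map_one]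
    obtain ⟨c, hcA⟩ := cover_into94 hc hG hp h22 hB hne hsq
    obtain ⟨hmem, hE⟩ := mem_coverA94.1 hcA
    rw [show (⟨(c : G) * z * (c : G)⁻¹, hmem⟩ : ↥(Subgroup.centralizer ({d} : Set G))) = c * z * c⁻¹
      from rfl, map_mul, map_mul, map_inv] at hE
    have hne1 : f c * f z * (f c)⁻¹ ≠ 1 := by rwa [Ne, conj_eq_one_iff]
    obtain ⟨m, hm1, hm3, l, hl, hlB⟩ := m22_base_element hG hp h22 hB hE hne1
    have hm : m = 1 := by
      by_contra hm
      have h0 := hlong m _ l (by omega) hm3 hl
      rw [hc.fib_conj, coverFib94, Set.ncard_eq_zero] at h0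
      exact Set.eq_empty_iff_forall_notMem.1 h0 z ⟨rfl, hz⟩
    subst hm
    have hmemD : f c * f z * (f c)⁻¹ ∈ D := by
      match l, hl.2.1 with
      | [a], _ =>
        have e : a = f c * f z * (f c)⁻¹ := by simpa using hl.2.2.2.2
        exact e ▸ hl.2.2.1 a (by simp)
    have := hG.2.1 (f c)⁻¹ _ hmemD
    rwa [inv_inv, show (f c)⁻¹ * (f c * f z * (f c)⁻¹) * f c = f z by group] at this
  refine ⟨fun b hb => ?_, fun z hz => Classical.or_iff_not_imp_left.2 (hclass z hz)⟩
  rw [hfib 1 a₀ b [a₀] [b] le_rfl (by norm_num) (hsingle a₀ (hB.sub ha₀)) (hsingle b hb)]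
  have hle := hc.fib_le a₀
  by_contra hk
  rcases Nat.lt_or_ge (coverFib94 d f a₀) 1 with h | h
  · obtain ⟨g, hgC, hgd⟩ := hc.nwc
    have hconj : IsConj d ((⟨_, hgC⟩ : ↥(Subgroup.centralizer ({d} : Set G))) : G) :=
      isConj_iff.2 ⟨g, rfl⟩
    have hm := hclass ⟨_, hgC⟩ hconj (fun h1 => by
      rcases (hc.ker _).1 h1 with h2 | h2
      · exact hc.ne (conj_eq_one_iff.1 h2)
      · exact hgd h2)
    have h0 := hfib 1 a₀ _ [a₀] _ le_rfl (by norm_num) (hsingle a₀ (hB.sub ha₀)) (hsingle _ hm)
    rw [Nat.lt_one_iff.1 h, coverFib94, Set.ncard_eq_zero] at h0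
    exact Set.eq_empty_iff_forall_notMem.1 h0 _ ⟨rfl, hconj⟩
  · have hk2 : coverFib94 d f a₀ = 2 := by omega
    have hch : ∀ b : Bf, ∃ z : ↥(Subgroup.centralizer ({d} : Set G)), f z = b := fun b => hc.surj _
    choose z hz using hch
    have htwo : ∀ b : Bf, IsConj d (z b : G) ∧ IsConj d ((z b : G) * d) := fun b =>
      hc.conj_of_two94 (by
        rw [hz, hfib 1 a₀ _ [a₀] _ le_rfl (by norm_num) (hsingle a₀ (hB.sub ha₀))
          (hsingle _ (hB.sub ((mBf _).1 b.2))), hk2])
    have hfd : f ⟨d, hc.self_mem⟩ = 1 := hc.f_self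
    have hcard : Nat.card (↥Bf × Bool) ≤ Nat.card ↥O := by
      refine Nat.card_le_card_of_injective (fun p =>
        ⟨if p.2 then ((z p.1 * ⟨d, hc.self_mem⟩ : ↥(Subgroup.centralizer ({d} : Set G))) : G)
          else (z p.1 : G), ?_⟩) ?_
      · split_ifs
        · refine hmemO _ ?_ (htwo p.1).2
          rw [map_mul, hfd, mul_one, hz]
          exact Subgroup.subset_closure ((mBf _).1 p.1.2)
        · exact hmemO _ (by rw [hz]; exact Subgroup.subset_closure ((mBf _).1 p.1.2)) (htwo p.1).1
      · rintro ⟨b, i⟩ ⟨b', i'⟩ h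
        have h' := congrArg Subtype.val h
        simp only at h'
        have hbb : b = b' := by
          refine Subtype.ext ?_
          rw [← hz b, ← hz b']
          cases i <;> cases i' <;> simp only [Bool.false_eq_true, if_false, if_true] at h' <;>
            have h'' := Subtype.ext h' <;> have h3 := congrArg f h'' <;>
            simpa [map_mul, hfd] using h3
        subst hbb
        cases i <;> cases i' <;> simp only [Bool.false_eq_true, if_false, if_true] at h'
        · rfl
        · exact absurd (by simpa using h') hc.ne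
        · exact absurd (by simpa using h') hc.ne
        · rfl
    rw [Nat.card_coe_set_eq, hcount, Nat.card_prod, Nat.card_eq_fintype_card, Fintype.card_coe,
      cBf, Nat.card_eq_fintype_card, Fintype.card_bool] at hcard
    norm_num at hcard

end count

open CfsgLib.FischerRecog58 CfsgLib.CosetEnum

variable {G : Type u} [Group G] [Finite G] {d : G}
  {f : ↥(Subgroup.centralizer ({d} : Set G)) →* Spor.Fi22}

theorem coverData54 (hdd : d * d = 1) (hd1 : d ≠ 1) (hsurj : Function.Surjective f)
    (hker : ∀ k, f k = 1 ↔ (k : G) = 1 ∨ (k : G) = d)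
    (hperf : commutator ↥(Subgroup.centralizer ({d} : Set G)) = ⊤)
    (hnwc : ∃ g : G, g * d * g⁻¹ ∈ Subgroup.centralizer ({d} : Set G) ∧ g * d * g⁻¹ ≠ d) :
    CoverData94 d f := by
  have := CosetEnum.Fi22.finite_fi22
  have memC : ∀ y : G, y ∈ Subgroup.centralizer ({d} : Set G) ↔ Commute y d := fun y =>
    Subgroup.mem_centralizer_singleton_iff
  have hker' : ∀ k, f k = 1 → k ∈ Subgroup.center ↥(Subgroup.centralizer ({d} : Set G)) ∧
      k * k = 1 := by
    intro k hk
    rcases (hker k).1 hk with h | h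
    · rw [show k = 1 from Subtype.ext h]
      exact ⟨one_mem _, one_mul _⟩
    · refine ⟨Subgroup.mem_center_iff.2 fun m => Subtype.ext ?_, Subtype.ext ?_⟩
      · rw [Subgroup.coe_mul, Subgroup.coe_mul, h]
        exact ((memC _).1 m.2).eq
      · rw [Subgroup.coe_mul, h]; exact hdd
  obtain ⟨cl, hcl⟩ := hsurj Fi22.U6.a0
  have h1 : cl * cl = 1 := by
    by_contra hne
    obtain ⟨g, hgC, hgd⟩ := hnwc
    have hcd : (cl * cl : ↥(Subgroup.centralizer ({d} : Set G))).1 = d :=
      ((hker _).1 (by rw [map_mul, hcl, tt_mul_self set22 a0_mem])).resolve_left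
        fun h => hne (Subtype.ext h)
    have outside : ∀ x : ↥(Subgroup.centralizer ({d} : Set G)), (x : G) ≠ d → (x : G) ≠ 1 →
        f x ≠ 1 := fun x h1 h2 h => ((hker x).1 h).elim h2 h1
    have hy1 : g * d * g⁻¹ ≠ 1 := fun h => hd1 (by simpa using h)
    have hgC' : g⁻¹ * d * g ∈ Subgroup.centralizer ({d} : Set G) := by
      rw [memC] at hgC ⊢
      have h := hgC.map (MulAut.conj g⁻¹).toMonoidHom
      simp [mul_assoc] at h
      rw [mul_assoc]
      exact h.symm
    have hgd' : g⁻¹ * d * g ≠ d := fun h => hgd (by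
      conv_lhs => rw [← h]
      simp [mul_assoc])
    have hy1' : g⁻¹ * d * g ≠ 1 := fun h => hd1 (by
      have := congrArg (fun z => g * z * g⁻¹) h
      simpa [mul_assoc] using this)
    obtain ⟨-, hnone⟩ := cover_distinguish58 ttg22 primitive22 type22 f hsurj hker' a0_mem hcl hne
      (x := ⟨g * d * g⁻¹, hgC⟩) (Subtype.ext (by
        show g * d * g⁻¹ * (g * d * g⁻¹) = 1
        rw [conj_mul, hdd, mul_one, mul_inv_cancel]))
      (outside _ hgd hy1)
    obtain ⟨⟨k, hk1, hk2, hk3⟩, -⟩ := cover_distinguish58 ttg22 primitive22 type22 f hsurj hker'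
      a0_mem hcl hne
      (x := ⟨g⁻¹ * d * g, hgC'⟩) (Subtype.ext (by
        show g⁻¹ * d * g * (g⁻¹ * d * g) = 1
        rw [show g⁻¹ * d * g * (g⁻¹ * d * g) = g⁻¹ * (d * d) * g by simp [mul_assoc], hdd]; simp))
      (outside _ hgd' hy1')
    have hkd : Commute (g * (k : G) * g⁻¹) (g * d * g⁻¹) :=
      commute_conj_iff'.2 ((memC _).1 k.2)
    have hkx : Commute (g * (k : G) * g⁻¹) d := by
      have h := (commute_conj_iff' (g := g)).2 (congrArg Subtype.val hk1.eq :
        Commute (k : G) (g⁻¹ * d * g))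
      rwa [show g * (g⁻¹ * d * g) * g⁻¹ = d by simp [mul_assoc]] at h
    refine hnone ⟨⟨g * (k : G) * g⁻¹, (memC _).2 hkx⟩, Subtype.ext hkd.eq, fun h hh => ?_,
      Subtype.ext ?_⟩
    · have hh' : Commute (h : G) (g * d * g⁻¹) := congrArg Subtype.val hh.eq
      have h1 : Commute (g⁻¹ * (h : G) * g) d := by
        have := hh'.map (MulAut.conj g⁻¹).toMonoidHom
        simpa [mul_assoc] using this
      have h2 : Commute (g⁻¹ * (h : G) * g) (g⁻¹ * d * g) := by
        have := ((memC _).1 h.2).map (MulAut.conj g⁻¹).toMonoidHom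
        simpa [mul_assoc] using this
      have h3 : Commute (k : G) (g⁻¹ * (h : G) * g * (g⁻¹ * (h : G) * g)) :=
        congrArg Subtype.val (hk2 ⟨_, (memC _).2 h1⟩ (Subtype.ext h2.eq)).eq
      refine Subtype.ext ?_
      have h4 := (h3.map (MulAut.conj g).toMonoidHom).eq
      simpa [mul_assoc] using h4
    · show g * (k : G) * g⁻¹ * (g * (k : G) * g⁻¹) = g * d * g⁻¹
      rw [conj_mul, show (k : G) * k = d from (congrArg Subtype.val hk3).trans hcd]
  have hlift : ∀ z, f z * f z = 1 → z * z = 1 := fun z hz =>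
    cover_lift58 ttg22 primitive22 type22 f hsurj hker' a0_mem hcl h1 hz z rfl
  refine ⟨hsurj, hdd, hd1, hker, hlift, fun g hg => hd1 ?_, hperf, hnwc⟩
  have hgc : g ∈ Subgroup.centralizer ({d} : Set G) := by
    rw [memC, ← hg]
    exact (Commute.refl g).mul_right (Commute.refl g)
  have h := hlift ⟨g, hgc⟩ (by
    rw [← map_mul]
    exact (hker _).2 (Or.inr hg))
  rw [← hg]
  exact congrArg Subtype.val h

/-- The local structure from the cover data. -/
theorem exists_loc (hc : CoverData94 d f) : ∃ L : Loc D22 d, L.f = f := by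
  have := CosetEnum.Fi22.finite_fi22
  obtain ⟨hone, hcls⟩ := cover_fib54 hc ttg22 primitive22 type22
  have hmem : ∀ z : ↥(Subgroup.centralizer ({d} : Set G)), (z : G) ∈ Nd d → f z ∈ D22 :=
    fun z hz => (hcls z hz.1).resolve_left fun h => by
      rcases (hc.ker z).1 h with e | e
      · exact hc.ne (isConj_one_left.1 (e ▸ hz.1 : IsConj d 1))
      · exact hz.2.1 e
  exact ⟨{
    f := f
    surj := hc.surj
    sq := hc.sq
    ne := hc.ne
    ker := hc.ker
    mem := hmem
    inj := fun z w hz hw h => by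
      obtain ⟨x, hx⟩ := Set.ncard_eq_one.1 (hone _ (hmem z hz))
      exact ((Set.ext_iff.1 hx z).1 ⟨rfl, hz.1⟩).trans ((Set.ext_iff.1 hx w).1 ⟨h.symm, hw.1⟩).symm
    onto := fun m hm => by
      obtain ⟨x, hx⟩ := Set.ncard_eq_one.1 (hone m hm)
      obtain ⟨hxm, hxd⟩ : f x = m ∧ IsConj d (x : G) := (Set.ext_iff.1 hx x).2 rfl
      refine ⟨x, ⟨hxd, fun e => tt_ne_one set22 hm ?_, ?_⟩, hxm⟩
      · rw [← hxm]; exact (hc.ker x).2 (Or.inr e)
      · exact (Subgroup.mem_centralizer_singleton_iff.1 x.2).symm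
    comm := fun z w hz hw h => hc.commute_lifts (tt_mul_self set22 (hmem z hz))
      (tt_mul_self set22 (hmem w hw)) h }, rfl⟩

end CfsgLib.Fi23Recog54
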