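import Cfsg.Agent.Fi23Recog54.Loc
import Cfsg.Agent.Fi23Recog54.Outer

/-!
The map induced on the common members of `d` and `a` by an element interchanging them does not
extend to the class of the presented Fi22.
-/

set_option autoImplicit false

namespace CfsgLib.Fi23Recog54

open Cfsg CfsgLib.ThreeTransp CfsgLib.ThreeTransp.Cover58 CfsgLib.FischerRecog58 CfsgLib.CosetEnum

universe u

variable {G : Type u} [Group G] {d : G}

/-- The common members. -/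
abbrev Od (d a : G) : Set G := Nd d ∩ nbr (conjugatesOf d) a

theorem exists_noncommuting22 {m : Spor.Fi22} (hm : m ∈ D22) : ∃ b ∈ D22, ¬ Commute m b := by
  by_contra hcon
  push Not at hcon
  have hc : m ∈ Subgroup.center Spor.Fi22 := Subgroup.mem_center_iff.2 fun g => by
    have h := (commute_closure_iff (S := D22) (g := m)).2 (fun s hs => (hcon s hs).symm) g
      (by rw [closure_D22]; trivial)
    exact h.eq
  rw [center22', Subgroup.mem_bot] at hc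
  exact tt_ne_one set22 hm hc

/-- No trace of a member not commuting with `d` in the members of `a` is a trace of one commuting
with `d`. -/
theorem noTrace54 (L : Loc D22 d) {a b e : G} (ha : a ∈ Nd d) (hb : b ∈ Nd d)
    (hab : ¬ Commute a b) (he : e ∈ nbr (conjugatesOf d) a) (hde : ¬ Commute d e) :
    ¬ ∀ z ∈ Od d a, (Commute z e ↔ Commute z b) := by
  intro hcon
  have := Fi22.finite_fi22
  have hA := L.φ_mem ha
  have hB := L.φ_mem hb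
  obtain ⟨m, hm⟩ : (nbr D22 (L.φ a) ∩ nbr D22 (L.φ b)).Nonempty := Set.nonempty_of_ncard_ne_zero (by
    rw [(m22_level ttg22 type22).card_nc _ _ hA hB fun h => hab ((L.φ_commute ha hb).1 h)]
    norm_num)
  obtain ⟨s, hs, rfl⟩ := L.φ_onto hm.1.1
  have hsa : s ∈ nbr (conjugatesOf d) a := (L.φ_nbr ha hs).1 hm.1
  have hsb : s ∈ nbr (conjugatesOf d) b := (L.φ_nbr hb hs).1 hm.2
  have hse : Commute s e := (hcon s ⟨hs, hsa⟩).2 hsb.2.2.symm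
  have hes : s ≠ e := fun h => hde (h ▸ hs.2.2)
  obtain ⟨g, hg⟩ := isConj_iff.1 hs.1
  -- everything moves to the neighbourhood of `d`
  have hgs : g⁻¹ * s * g⁻¹⁻¹ = d := by rw [inv_inv, ← hg]; group
  have mv : ∀ {x : G}, IsConj d x → x ≠ s → Commute s x → g⁻¹ * x * g⁻¹⁻¹ ∈ Nd d := by
    intro x h1 h2 h3
    have h := nbr_conjugates (d := d) g⁻¹ (a := s) (z := x) ⟨h1, h2, h3⟩
    rwa [hgs] at h
  have hd' := mv (IsConj.refl d) hs.2.1.symm hs.2.2.symm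
  have ha' := mv ha.1 hsa.2.1.symm hsa.2.2.symm
  have hb' := mv hb.1 hsb.2.1.symm hsb.2.2.symm
  have he' := mv he.1 hes.symm hse
  have hc : ∀ {x y : G}, g⁻¹ * x * g⁻¹⁻¹ ∈ Nd d → g⁻¹ * y * g⁻¹⁻¹ ∈ Nd d →
      (Commute (L.φ (g⁻¹ * x * g⁻¹⁻¹)) (L.φ (g⁻¹ * y * g⁻¹⁻¹)) ↔ Commute x y) := fun hx hy =>
    (L.φ_commute hx hy).trans commute_conj_iff'
  obtain ⟨A', hA'⟩ : ∃ A', L.φ (g⁻¹ * a * g⁻¹⁻¹) = A' := ⟨_, rfl⟩
  obtain ⟨D', hD'⟩ : ∃ D', L.φ (g⁻¹ * d * g⁻¹⁻¹) = D' := ⟨_, rfl⟩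
  obtain ⟨E', hE'⟩ : ∃ E', L.φ (g⁻¹ * e * g⁻¹⁻¹) = E' := ⟨_, rfl⟩
  obtain ⟨B', hB'⟩ : ∃ B', L.φ (g⁻¹ * b * g⁻¹⁻¹) = B' := ⟨_, rfl⟩
  have hDA : A' ∈ nbr D22 D' := by
    rw [← hA', ← hD']
    exact ⟨L.φ_mem ha', fun h => ha.2.1 (by simpa using L.φ_inj ha' hd' h), (hc hd' ha').2 ha.2.2⟩
  have hAE : E' ∈ nbr D22 A' := by
    rw [← hA', ← hE']
    exact ⟨L.φ_mem he', fun h => he.2.1 (by simpa using L.φ_inj he' ha' h), (hc ha' he').2 he.2.2⟩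
  have hDE : ¬ Commute D' E' := by rw [← hD', ← hE']; exact fun h => hde ((hc hd' he').1 h)
  have hAB : ¬ Commute A' B' := by rw [← hA', ← hB']; exact fun h => hab ((hc ha' hb').1 h)
  -- the traces
  have htr : ∀ w ∈ nbr D22 D', w ∈ nbr D22 A' → (Commute w E' ↔ Commute w B') := by
    intro w hw hwA
    obtain ⟨w', hw', rfl⟩ := L.φ_onto hw.1
    obtain ⟨z, rfl⟩ : ∃ z, g⁻¹ * z * g⁻¹⁻¹ = w' := ⟨g * w' * g⁻¹, by group⟩
    have hz1 : IsConj d z := (isConj_iff.2 ⟨g, by group⟩ :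
      IsConj (g⁻¹ * z * g⁻¹⁻¹) z) |> hw'.1.trans
    rw [← hE', ← hB', hc hw' he', hc hw' hb']
    refine hcon z ⟨⟨hz1, fun h => hw.2.1 (by rw [← hD', h]), ?_⟩, hz1,
      fun h => hwA.2.1 (by rw [← hA', h]), ?_⟩
    · have h := hw.2.2; rw [← hD'] at h
      exact (hc hd' hw').1 h
    · have h := hwA.2.2; rw [← hA'] at h
      exact (hc ha' hw').1 h
  have hDA' : A' ∈ nbr D22 D' := hDA
  have hD'm : D' ∈ D22 := hD' ▸ L.φ_mem hd'
  have hE'm : E' ∈ D22 := hE' ▸ L.φ_mem he'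
  have hB'm : B' ∈ D22 := hB' ▸ L.φ_mem hb'
  obtain ⟨c, hcm⟩ : ((nbr D22 D' ∩ nbr D22 A') ∩ nbr D22 E').Nonempty := Set.nonempty_of_ncard_ne_zero
    (by
      rw [Set.inter_comm (nbr D22 D'),
        (m22_localData ttg22 type22).card_nc A' hDA.1 D' (nbr_swap hD'm hDA) E' hAE hDE]
      norm_num)
  have hcB : Commute c B' := (htr c hcm.1.1 hcm.1.2).1 hcm.2.2.2.symm
  have hBc : B' ∈ nbr D22 c := ⟨hB'm, fun h => hAB (h ▸ hcm.1.2.2.2), hcB⟩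
  obtain ⟨P⟩ := m22_pointModel ttg22 type22 hcm.1.1.1
  obtain ⟨y, hy, hyd, hya, hye, hyb⟩ := model_trace P (nbr_swap hD'm hcm.1.1)
    (nbr_swap hDA.1 hcm.1.2) (nbr_swap hE'm hcm.2) hBc hDA hAE hDE hAB
  exact hyb ((htr y hyd hya).1 hye.2.2.symm).symm

/-- The map induced by an interchanging element. -/
noncomputable def swapMap (L : Loc D22 d) (σ : G) (m : Spor.Fi22) : Spor.Fi22 :=
  letI := Classical.propDecidable (m ∈ D22)
  if h : m ∈ D22 then L.φ (σ * (L.φ_onto h).choose * σ⁻¹) else 1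

theorem swapMap_eq (L : Loc D22 d) (σ : G) {z : G} (hz : z ∈ Nd d) :
    swapMap L σ (L.φ z) = L.φ (σ * z * σ⁻¹) := by
  rw [swapMap, dif_pos (L.φ_mem hz),
    L.φ_inj (L.φ_onto (L.φ_mem hz)).choose_spec.1 hz (L.φ_onto (L.φ_mem hz)).choose_spec.2]

variable (L : Loc D22 d) {a σ : G} (ha : a ∈ Nd d) (haa : L.φ a = Fi22.U6.a0)
  (hσd : σ * d * σ⁻¹ = a) (hσa : σ * a * σ⁻¹ = d)
include ha haa hσd hσa

theorem od_conj {z : G} (hz : z ∈ Od d a) : σ * z * σ⁻¹ ∈ Od d a := by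
  have h1 := nbr_conjugates σ hz.1
  have h2 := nbr_conjugates σ hz.2
  rw [hσd] at h1
  rw [hσa] at h2
  exact ⟨h2, h1⟩

theorem swapMap_gmap : GMap (nbr D22 Fi22.U6.a0) (nbr D22 Fi22.U6.a0) (swapMap L σ) := by
  have hr := L.gmap.restrict (nbr_subset _ d) (Set.Subset.refl D22) ha (D := conjugatesOf d)
  rw [haa, Set.inter_eq_right.2 (nbr_subset D22 Fi22.U6.a0)] at hr
  obtain ⟨κ, hκ, hκl, hκr⟩ := hr.exists_inv
  have hm : GMap (Od d a) (Od d a) fun x => σ * x * σ⁻¹ :=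
    gmap_conj σ (fun z hz => od_conj L ha haa hσd hσa hz) (fun z hz => by
      have h1 := nbr_conjugates σ⁻¹ hz.1
      have h2 := nbr_conjugates σ⁻¹ hz.2
      rw [show σ⁻¹ * d * σ⁻¹⁻¹ = a by rw [← hσa]; group] at h1
      rw [show σ⁻¹ * a * σ⁻¹⁻¹ = d by rw [← hσd]; group] at h2
      rw [inv_inv] at h1 h2
      exact ⟨h2, h1⟩)
  refine ((hκ.comp hm).comp hr).of_eqOn fun m hm' => ?_
  conv_lhs => rw [← hκr m hm']
  exact swapMap_eq L σ (hκ.mem m hm').1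

theorem swapMap_no_extend {Ω : Spor.Fi22 → Spor.Fi22} (hΩ : GMap D22 D22 Ω) (hΩa : Ω Fi22.U6.a0 = Fi22.U6.a0) :
    ¬ ∀ m ∈ nbr D22 Fi22.U6.a0, swapMap L σ m = Ω m := by
  intro hs
  obtain ⟨B, hB, hBn⟩ := exists_noncommuting22 a0_mem
  obtain ⟨b₁, hb₁, rfl⟩ := L.φ_onto hB
  obtain ⟨b, hb, hbe⟩ := L.φ_onto (hΩ.mem _ hB)
  have hb₁a : ¬ Commute a b₁ := fun h => hBn (haa ▸ (L.φ_commute ha hb₁).2 h)
  have he : σ * b₁ * σ⁻¹ ∈ nbr (conjugatesOf d) a := hσd ▸ nbr_conjugates σ hb₁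
  refine noTrace54 L ha hb (fun h => ?_) he (fun h => ?_) fun z hz => ?_
  · have h' := (L.φ_commute ha hb).2 h
    rw [haa, hbe, ← hΩa] at h'
    exact hBn ((hΩ.comm _ a0_mem _ hB).1 h')
  · rw [← hσa] at h
    exact hb₁a (commute_conj_iff'.1 h)
  · obtain ⟨z', rfl⟩ : ∃ z', σ * z' * σ⁻¹ = z := ⟨σ⁻¹ * z * σ, by group⟩
    have hz' : z' ∈ Od d a := by
      have h1 := nbr_conjugates σ⁻¹ hz.1
      have h2 := nbr_conjugates σ⁻¹ hz.2
      rw [show σ⁻¹ * d * σ⁻¹⁻¹ = a by rw [← hσa]; group,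
        show σ⁻¹ * (σ * z' * σ⁻¹) * σ⁻¹⁻¹ = z' by group] at h1
      rw [show σ⁻¹ * a * σ⁻¹⁻¹ = d by rw [← hσd]; group,
        show σ⁻¹ * (σ * z' * σ⁻¹) * σ⁻¹⁻¹ = z' by group] at h2
      exact ⟨h2, h1⟩
    have hmn : L.φ z' ∈ nbr D22 Fi22.U6.a0 := haa ▸ (L.φ_nbr ha hz'.1).2 hz'.2
    rw [commute_conj_iff', ← L.φ_commute hz.1 hb, hbe, ← swapMap_eq L σ hz'.1, hs _ hmn,
      hΩ.comm _ hmn.1 _ hB, L.φ_commute hz'.1 hb₁]

theorem swapMap_sq_inner : IsInnerMap (nbr D22 Fi22.U6.a0) fun m => swapMap L σ (swapMap L σ m) := by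
  have hc : Commute (σ * σ) d := by
    refine mul_inv_eq_iff_eq_mul.1 ?_
    rw [show σ * σ * d * (σ * σ)⁻¹ = σ * (σ * d * σ⁻¹) * σ⁻¹ by group, hσd, hσa]
  have hca : Commute (σ * σ) a := by
    refine mul_inv_eq_iff_eq_mul.1 ?_
    rw [show σ * σ * a * (σ * σ)⁻¹ = σ * (σ * a * σ⁻¹) * σ⁻¹ by group, hσa, hσd]
  refine ⟨L.φ (σ * σ), commute_a0_mem ?_, fun m hm => ?_⟩
  · rw [← haa]
    show L.φ (σ * σ) * L.φ a = L.φ a * L.φ (σ * σ)
    rw [← L.φ_mul hc ha.2.2.symm, ← L.φ_mul ha.2.2.symm hc, hca.eq]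
  · obtain ⟨z, hz, rfl⟩ := L.φ_onto hm.1
    have hz' : z ∈ Od d a := ⟨hz, (L.φ_nbr ha hz).1 (haa.symm ▸ hm)⟩
    show swapMap L σ (swapMap L σ (L.φ z)) = _
    rw [swapMap_eq L σ hz, swapMap_eq L σ (od_conj L ha haa hσd hσa hz').1,
      ← L.φ_conj hc hz.2.2.symm]
    congr 1
    group

end CfsgLib.Fi23Recog54
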