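import Cfsg.Agent.Fi23Recog54.Swap
import Cfsg.Agent.Fi23Recog54.Model

/-!
The maps induced by interchanging elements in a group and in the presented Fi23 agree up to an
inner map, so every trace of the model is a trace in the group.
-/

set_option autoImplicit false

namespace CfsgLib.Fi23Recog54

open Cfsg CfsgLib.ThreeTransp CfsgLib.ThreeTransp.Cover58 CfsgLib.FischerRecog58 CfsgLib.CosetEnum

universe u

variable {G : Type u} [Group G] {d : G}

/-- In a group of order six three involutions `ω, γ, ωγω` are all the involutions. -/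
theorem six_involutions {Q : Type} [Group Q] (h6 : Nat.card Q = 6) {γ ω τ : Q} (hγ : γ * γ = 1)
    (hγ1 : γ ≠ 1) (hω : ω * ω = 1) (hω1 : ω ≠ 1) (hτ : τ * τ = 1) (hτ1 : τ ≠ 1) (hγω : γ ≠ ω)
    (hτω : τ ≠ ω) : τ = γ ∨ τ = ω * γ * ω := by
  classical
  have : Finite Q := Nat.finite_of_card_ne_zero (by omega)
  have := Fintype.ofFinite Q
  have hnc : ω * γ ≠ γ * ω := by
    intro hc
    have hωi : ω⁻¹ = ω := inv_eq_of_mul_eq_one_left hω
    have hwg : ω * γ ≠ 1 := fun e => hγω (by rw [← hωi, ← inv_eq_of_mul_eq_one_right e])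
    let K : Subgroup Q :=
      { carrier := {1, γ, ω, ω * γ}
        one_mem' := Or.inl rfl
        inv_mem' := by
          rintro x (rfl | rfl | rfl | rfl)
          · exact Or.inl inv_one
          · exact Or.inr (Or.inl (inv_eq_of_mul_eq_one_left hγ))
          · exact Or.inr (Or.inr (Or.inl hωi))
          · refine Or.inr (Or.inr (Or.inr ?_))
            rw [mul_inv_rev, hωi, inv_eq_of_mul_eq_one_left hγ, ← hc]
            rfl
        mul_mem' := by
          have e1 : γ * (ω * γ) = ω := by rw [← mul_assoc, ← hc, mul_assoc, hγ, mul_one]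
          have e2 : ω * γ * ω = γ := by rw [hc, mul_assoc, hω, mul_one]
          have e3 : ω * γ * γ = ω := by rw [mul_assoc, hγ, mul_one]
          have e4 : ω * (ω * γ) = γ := by rw [← mul_assoc, hω, one_mul]
          have e5 : ω * γ * (ω * γ) = 1 := by rw [mul_assoc, e1, hω]
          rintro x y (h1 | h1 | h1 | h1) (h2 | h2 | h2 | h2) <;> rw [h1, h2] <;>
            simp only [Set.mem_insert_iff, Set.mem_singleton_iff, one_mul, mul_one, hγ, hω, ← hc,
              e1, e2, e3, e4, e5, true_or, or_true] }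
    have hK : Nat.card K = 4 := by
      have hset : (K : Set Q) = {1, γ, ω, ω * γ} := rfl
      rw [show Nat.card K = (K : Set Q).ncard from (Nat.card_coe_set_eq _), hset,
        Set.ncard_insert_of_notMem (by
          simp only [Set.mem_insert_iff, Set.mem_singleton_iff, not_or]
          exact ⟨hγ1.symm, hω1.symm, hwg.symm⟩),
        Set.ncard_insert_of_notMem (by
          simp only [Set.mem_insert_iff, Set.mem_singleton_iff, not_or]
          exact ⟨hγω, fun e => hω1 (right_eq_mul.1 e)⟩),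
        Set.ncard_pair (fun e => hγ1 (left_eq_mul.1 e))]
    have h := Subgroup.card_subgroup_dvd_card K
    rw [hK, h6] at h
    norm_num at h
  by_contra hcon
  push Not at hcon
  have hω' : ∀ x, ω * (ω * x) = x := fun x => by rw [← mul_assoc, hω, one_mul]
  have hsq : ω * γ * ω * (ω * γ * ω) = 1 := by
    simp only [mul_assoc, hω']
    rw [← mul_assoc γ γ, hγ, one_mul, hω]
  have hinv : ∀ {x y : Q}, x * x = 1 → y * y = 1 → x * y * (x * y) = 1 → x * y = y * x := by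
    intro x y hx hy hxy
    have h := inv_eq_of_mul_eq_one_left hxy
    rw [mul_inv_rev, inv_eq_of_mul_eq_one_left hx, inv_eq_of_mul_eq_one_left hy] at h
    exact h.symm
  have hl : ([1, γ, ω, ω * γ * ω, τ, ω * γ, γ * ω] : List Q).Nodup := by
    simp only [List.nodup_cons, List.mem_cons, List.not_mem_nil, or_false, List.nodup_nil, and_true,
      not_or, not_false_iff]
    refine ⟨⟨hγ1.symm, hω1.symm, fun e => ?_, hτ1.symm, fun e => ?_, fun e => ?_⟩,
      ⟨hγω, fun e => ?_, hcon.1.symm, fun e => hω1 (right_eq_mul.1 e),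
        fun e => hω1 (left_eq_mul.1 e)⟩,
      ⟨fun e => ?_, hτω.symm, fun e => hγ1 (left_eq_mul.1 e), fun e => hγ1 (right_eq_mul.1 e)⟩,
      ⟨hcon.2.symm, fun e => hω1 (mul_eq_left.1 e), fun e => ?_⟩,
      ⟨fun e => ?_, fun e => ?_⟩, hnc⟩
    · have : γ = 1 := by
        calc γ = ω * (ω * γ * ω) * ω := by simp only [mul_assoc, hω', hω, mul_one]
          _ = 1 := by rw [← e, mul_one, hω]
      exact hγ1 this
    · exact hnc (hinv hω hγ (by rw [← e, one_mul]))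
    · exact hnc (hinv hγ hω (by rw [← e, one_mul])).symm
    · refine hnc ?_
      calc ω * γ = ω * γ * ω * ω := by rw [mul_assoc _ ω ω, hω, mul_one]
        _ = γ * ω := by rw [← e]
    · refine hγω ?_
      calc γ = ω * (ω * γ * ω) * ω := by simp only [mul_assoc, hω', hω, mul_one]
        _ = ω := by rw [← e, hω, one_mul]
    · refine hnc (hinv hγ hω ?_).symm
      rw [← e]
      exact hsq
    · exact hnc (hinv hω hγ (by rw [← e]; exact hτ))
    · exact hnc (hinv hγ hω (by rw [← e]; exact hτ)).symm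
  have h := List.Nodup.length_le_card hl
  rw [Fintype.card_eq_nat_card, h6] at h
  simp at h

theorem gmap_conj22 (k : Spor.Fi22) : GMap D22 D22 (fun x => k * x * k⁻¹) :=
  gmap_conj k (fun _ hz => conj_mem_D22 k hz) fun z hz => by
    have h := conj_mem_D22 k⁻¹ hz
    rwa [inv_inv] at h

/-- After a twist of the local structure the two interchanging maps compose to an inner map. -/
theorem exists_inner_pair (L : Loc D22 d) {a σ : G} (ha : a ∈ Nd d) (haa : L.φ a = Fi22.U6.a0)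
    (hσd : σ * d * σ⁻¹ = a) (hσa : σ * a * σ⁻¹ = d) {σH : Spor.Fi23} {aH : Spor.Fi23}
    (haH : aH ∈ Nd Fi23.z0) (haaH : modelLoc.φ aH = Fi22.U6.a0) (hHd : σH * Fi23.z0 * σH⁻¹ = aH)
    (hHa : σH * aH * σH⁻¹ = Fi23.z0) :
    ∃ L' : Loc D22 d, L'.φ a = Fi22.U6.a0 ∧ ∃ k, Commute k Fi22.U6.a0 ∧
      ∀ m ∈ nbr D22 Fi22.U6.a0, swapMap modelLoc σH (swapMap L' σ m) = k * m * k⁻¹ := by
  obtain ⟨b, hb, hbn, hb2⟩ := exists_outer22
  obtain ⟨Q, _, c, h6, hc⟩ := nbr_out_six (rfl : nbr D22 Fi22.U6.a0 = _)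
  have hbs : b.symm Fi22.U6.a0 = Fi22.U6.a0 := by
    conv_lhs => rw [← hb]
    exact b.symm_apply_apply _
  have gb := aut_nbr hb
  have gbs := aut_nbr hbs
  have gG := swapMap_gmap L ha haa hσd hσa
  have gH := swapMap_gmap modelLoc haH haaH hHd hHa
  have hid : IsInnerMap (nbr D22 Fi22.U6.a0) fun z => z := ⟨1, one_mem _, fun z _ => by simp⟩
  -- equal maps have equal classes
  have hcongr : ∀ f g, GMap (nbr D22 Fi22.U6.a0) (nbr D22 Fi22.U6.a0) f →
      (∀ z ∈ nbr D22 Fi22.U6.a0, g z = f z) → c g = c f := by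
    intro f g hf e
    obtain ⟨r, hr, -, hr2⟩ := hf.exists_inv
    have h1 : c (fun z => f (r z)) = 1 := ((hc _ (hr.comp hf)).1).2
      ⟨1, one_mem _, fun z hz => by show f (r z) = _; rw [hr2 z hz]; group⟩
    have h2 : c (fun z => g (r z)) = 1 := ((hc _ (hr.comp (hf.of_eqOn e))).1).2
      ⟨1, one_mem _, fun z hz => by show g (r z) = _; rw [e _ (hr.mem z hz), hr2 z hz]; group⟩
    rw [(hc f hf).2 r hr] at h1
    rw [(hc g (hf.of_eqOn e)).2 r hr] at h2
    exact mul_right_cancel (h2.trans h1.symm)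
  have hω : c b * c b = 1 := by
    rw [← (hc b gb).2 b gb]
    exact ((hc _ (gb.comp gb)).1).2 hb2
  have hω1 : c b ≠ 1 := fun e => hbn ((hc b gb).1.1 e)
  have hsq : ∀ {G : Type u} [Group G] {d : G} (L : Loc D22 d) {a σ : G}, a ∈ Nd d →
      L.φ a = Fi22.U6.a0 → σ * d * σ⁻¹ = a → σ * a * σ⁻¹ = d →
      c (swapMap L σ) * c (swapMap L σ) = 1 ∧ c (swapMap L σ) ≠ 1 ∧ c (swapMap L σ) ≠ c b := by
    intro G _ d L a σ ha haa hσd hσa
    have g := swapMap_gmap L ha haa hσd hσa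
    refine ⟨?_, fun e => ?_, fun e => ?_⟩
    · rw [← (hc _ g).2 _ g]
      exact ((hc _ (g.comp g)).1).2 (swapMap_sq_inner L ha haa hσd hσa)
    · obtain ⟨k, hk, hkz⟩ := (hc _ g).1.1 e
      exact swapMap_no_extend L ha haa hσd hσa (gmap_conj22 k)
        (by rw [(commute_of_mem_closure_nbr hk).eq, mul_inv_cancel_right]) hkz
    · have h1 : c (fun z => swapMap L σ (b z)) = 1 := by rw [(hc _ g).2 b gb, e, hω]
      obtain ⟨k, hk, hkz⟩ := (hc _ (gb.comp g)).1.1 h1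
      refine swapMap_no_extend L ha haa hσd hσa ((aut_gmap (b := b.symm)).comp (gmap_conj22 k))
        (by rw [hbs, (commute_of_mem_closure_nbr hk).eq, mul_inv_cancel_right]) fun m hm => ?_
      show _ = k * b.symm m * k⁻¹
      rw [← hkz _ (gbs.mem m hm)]
      simp
  obtain ⟨hγ, hγ1, hγω⟩ := hsq L ha haa hσd hσa
  have hτ : c (swapMap modelLoc σH) * c (swapMap modelLoc σH) = 1 := by
    rw [← (hc _ gH).2 _ gH]
    exact ((hc _ (gH.comp gH)).1).2 (swapMap_sq_inner modelLoc haH haaH hHd hHa)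
  have hτ1 : c (swapMap modelLoc σH) ≠ 1 := fun e => by
    obtain ⟨k, hk, hkz⟩ := (hc _ gH).1.1 e
    exact swapMap_no_extend modelLoc haH haaH hHd hHa (gmap_conj22 k)
      (by rw [(commute_of_mem_closure_nbr hk).eq, mul_inv_cancel_right]) hkz
  have hτω : c (swapMap modelLoc σH) ≠ c b := fun e => by
    have h1 : c (fun z => swapMap modelLoc σH (b z)) = 1 := by rw [(hc _ gH).2 b gb, e, hω]
    obtain ⟨k, hk, hkz⟩ := (hc _ (gb.comp gH)).1.1 h1
    refine swapMap_no_extend modelLoc haH haaH hHd hHa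
      ((aut_gmap (b := b.symm)).comp (gmap_conj22 k))
      (by rw [hbs, (commute_of_mem_closure_nbr hk).eq, mul_inv_cancel_right]) fun m hm => ?_
    show _ = k * b.symm m * k⁻¹
    rw [← hkz _ (gbs.mem m hm)]
    simp
  have fin : ∀ L' : Loc D22 d, L'.φ a = Fi22.U6.a0 → c (swapMap L' σ) = c (swapMap modelLoc σH) →
      ∃ k, Commute k Fi22.U6.a0 ∧
        ∀ m ∈ nbr D22 Fi22.U6.a0, swapMap modelLoc σH (swapMap L' σ m) = k * m * k⁻¹ := by
    intro L' h0 e
    have g := swapMap_gmap L' ha h0 hσd hσa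
    have h1 : c (fun z => swapMap modelLoc σH (swapMap L' σ z)) = 1 := by
      rw [(hc _ gH).2 _ g, e, hτ]
    obtain ⟨k, hk, hkz⟩ := (hc _ (g.comp gH)).1.1 h1
    exact ⟨k, commute_of_mem_closure_nbr hk, hkz⟩
  rcases six_involutions h6 hγ hγ1 hω hω1 hτ hτ1 hγω hτω with e | e
  · exact ⟨L, haa, fin L haa e.symm⟩
  · have ha' : (L.twist b (aut_mem22 b)).φ a = Fi22.U6.a0 := by
      rw [L.twist_φ b (aut_mem22 b) ha.2.2.symm, haa, hb]
    refine ⟨L.twist b (aut_mem22 b), ha', fin _ ha' ?_⟩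
    have g := swapMap_gmap (L.twist b (aut_mem22 b)) ha ha' hσd hσa
    have hkey : ∀ m ∈ nbr D22 Fi22.U6.a0,
        swapMap (L.twist b (aut_mem22 b)) σ (b m) = b (swapMap L σ m) := by
      intro m hm
      obtain ⟨z, hz, rfl⟩ := L.φ_onto hm.1
      have hz' : z ∈ Od d a := ⟨hz, (L.φ_nbr ha hz).1 (haa.symm ▸ hm)⟩
      rw [← L.twist_φ b (aut_mem22 b) hz.2.2.symm, swapMap_eq _ σ hz, swapMap_eq L σ hz,
        L.twist_φ b (aut_mem22 b) (od_conj L ha haa hσd hσa hz').1.2.2.symm]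
    have h := hcongr _ _ (gG.comp gb) hkey
    rw [(hc _ g).2 b gb, (hc b gb).2 _ gG] at h
    rw [e, ← h, mul_assoc, hω, mul_one]

/-- The member commuting with `z0` with the same image. -/
noncomputable def theta (L : Loc D22 d) (z : G) : Spor.Fi23 :=
  letI := Classical.propDecidable (L.φ z ∈ D22)
  if h : L.φ z ∈ D22 then (modelLoc.φ_onto h).choose else 1

theorem theta_spec (L : Loc D22 d) {z : G} (hz : z ∈ Nd d) :
    theta L z ∈ Nd Fi23.z0 ∧ modelLoc.φ (theta L z) = L.φ z := by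
  rw [theta, dif_pos (L.φ_mem hz)]
  exact (modelLoc.φ_onto (L.φ_mem hz)).choose_spec

theorem theta_eq (L : Loc D22 d) {z : G} {w : Spor.Fi23} (hz : z ∈ Nd d) (hw : w ∈ Nd Fi23.z0)
    (h : L.φ z = modelLoc.φ w) : theta L z = w :=
  modelLoc.φ_inj (theta_spec L hz).1 hw ((theta_spec L hz).2.trans h)

/-- The traces of the model are traces in the group, at one member. -/
theorem trace_at (L : Loc D22 d) {a σ : G} (ha : a ∈ Nd d) (haa : L.φ a = Fi22.U6.a0)
    (hσd : σ * d * σ⁻¹ = a) (hσa : σ * a * σ⁻¹ = d) {σH aH : Spor.Fi23}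
    (haH : aH ∈ Nd Fi23.z0) (haaH : modelLoc.φ aH = Fi22.U6.a0) (hHd : σH * Fi23.z0 * σH⁻¹ = aH)
    (hHa : σH * aH * σH⁻¹ = Fi23.z0) {k : Spor.Fi22} (hk : Commute k Fi22.U6.a0)
    (hkm : ∀ m ∈ nbr D22 Fi22.U6.a0, swapMap modelLoc σH (swapMap L σ m) = k * m * k⁻¹)
    {j : Spor.Fi23} (hj : j ∈ nbr (conjugatesOf Fi23.z0) aH) (hjz : ¬ Commute Fi23.z0 j) :
    ∃ J ∈ nbr (conjugatesOf d) a, ¬ Commute d J ∧
      ∀ x ∈ Od d a, (Commute x J ↔ Commute (theta L x) j) := by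
  have hzH : σH * j * σH⁻¹ ∈ Nd Fi23.z0 := by
    have h := nbr_conjugates (d := Fi23.z0) σH hj
    rwa [hHa] at h
  have hpn : ¬ Commute Fi22.U6.a0 (modelLoc.φ (σH * j * σH⁻¹)) := by
    rw [← haaH, modelLoc.φ_commute haH hzH, ← hHd, commute_conj_iff']
    exact hjz
  obtain ⟨z, hz, hzp⟩ := L.φ_onto (conj_mem_D22 k⁻¹ (modelLoc.φ_mem hzH))
  rw [inv_inv] at hzp
  have hza : ¬ Commute a z := by
    rw [← L.φ_commute ha hz, haa, hzp,
      ← commute_conj_iff' (g := k), show k * Fi22.U6.a0 * k⁻¹ = Fi22.U6.a0 by rw [hk.eq, mul_inv_cancel_right],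
      show k * (k⁻¹ * modelLoc.φ (σH * j * σH⁻¹) * k) * k⁻¹ = modelLoc.φ (σH * j * σH⁻¹) by group]
    exact hpn
  have hJ : σ * z * σ⁻¹ ∈ nbr (conjugatesOf d) a := hσd ▸ nbr_conjugates σ hz
  refine ⟨σ * z * σ⁻¹, hJ, fun h => ?_, fun x hx => ?_⟩
  · rw [← hσa] at h
    exact hza (commute_conj_iff'.1 h)
  obtain ⟨x', rfl⟩ : ∃ x', σ * x' * σ⁻¹ = x := ⟨σ⁻¹ * x * σ, by group⟩
  have hx' : x' ∈ Od d a := by
    have h1 := nbr_conjugates σ⁻¹ hx.1
    have h2 := nbr_conjugates σ⁻¹ hx.2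
    rw [show σ⁻¹ * d * σ⁻¹⁻¹ = a by rw [← hσa]; group,
      show σ⁻¹ * (σ * x' * σ⁻¹) * σ⁻¹⁻¹ = x' by group] at h1
    rw [show σ⁻¹ * a * σ⁻¹⁻¹ = d by rw [← hσd]; group,
      show σ⁻¹ * (σ * x' * σ⁻¹) * σ⁻¹⁻¹ = x' by group] at h2
    exact ⟨h2, h1⟩
  obtain ⟨hw, hwe⟩ := theta_spec L hx.1
  have hwn : theta L (σ * x' * σ⁻¹) ∈ nbr (conjugatesOf Fi23.z0) aH := by
    refine (modelLoc.φ_nbr haH hw).1 ?_
    rw [haaH, hwe, ← haa]
    exact (L.φ_nbr ha hx.1).2 hx.2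
  have hw' : σH * theta L (σ * x' * σ⁻¹) * σH⁻¹ ∈ Nd Fi23.z0 := by
    have h := nbr_conjugates (d := Fi23.z0) σH hwn
    rwa [hHa] at h
  have hmn : L.φ x' ∈ nbr D22 Fi22.U6.a0 := haa ▸ (L.φ_nbr ha hx'.1).2 hx'.2
  rw [commute_conj_iff', ← L.φ_commute hx'.1 hz, hzp,
    ← commute_conj_iff' (a := theta L (σ * x' * σ⁻¹)) (b := j) (g := σH),
    ← modelLoc.φ_commute hw' hzH, ← swapMap_eq modelLoc σH hw, hwe, ← swapMap_eq L σ hx'.1,
    hkm _ hmn, ← commute_conj_iff' (g := k),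
    show k * (k⁻¹ * modelLoc.φ (σH * j * σH⁻¹) * k) * k⁻¹ = modelLoc.φ (σH * j * σH⁻¹) by group]

/-- Every trace of the model is a trace in the group. -/
def TraceProp (L : Loc D22 d) : Prop :=
  ∀ a ∈ Nd d, ∀ j ∈ nbr (conjugatesOf Fi23.z0) (theta L a), ¬ Commute Fi23.z0 j →
    ∃ J ∈ nbr (conjugatesOf d) a, ¬ Commute d J ∧
      ∀ x ∈ Od d a, (Commute x J ↔ Commute (theta L x) j)

theorem exists_traceProp (L₀ : Loc D22 d) : ∃ L : Loc D22 d, TraceProp L := by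
  obtain ⟨a, ha, haa⟩ := L₀.φ_onto a0_mem
  obtain ⟨σ, hσd, hσa⟩ := L₀.exists_swap single22 ha
  obtain ⟨aH, haH, haaH⟩ := modelLoc.φ_onto a0_mem
  obtain ⟨σH, hHd, hHa⟩ := modelLoc.exists_swap single22 haH
  obtain ⟨L, haa', k, hk, hkm⟩ := exists_inner_pair L₀ ha haa hσd hσa haH haaH hHd hHa
  refine ⟨L, fun a' ha' j' hj' hjz' => ?_⟩
  obtain ⟨c, hc, rfl⟩ := L.exists_conj single22 ha ha'
  obtain ⟨h, hh, hhe⟩ := modelLoc.exists_φ (L.φ c)
  have hth : ∀ {x}, x ∈ Nd d → theta L (c * x * c⁻¹) = h * theta L x * h⁻¹ := fun {x} hx => by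
    refine theta_eq L (nd_conj hc hx) (nd_conj hh (theta_spec L hx).1) ?_
    rw [L.φ_conj hc hx.2.2.symm, modelLoc.φ_conj hh (theta_spec L hx).1.2.2.symm, hhe,
      (theta_spec L hx).2]
  have hta : theta L a = aH := theta_eq L ha haH (haa'.trans haaH.symm)
  have hj : h⁻¹ * j' * h ∈ nbr (conjugatesOf Fi23.z0) aH := by
    have e := nbr_conjugates (d := Fi23.z0) h⁻¹ hj'
    rwa [hth ha, hta, inv_inv, show h⁻¹ * (h * aH * h⁻¹) * h = aH by group] at e
  have hhz : h * Fi23.z0 * h⁻¹ = Fi23.z0 := by rw [hh.eq, mul_inv_cancel_right]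
  obtain ⟨J, hJ, hdJ, hJt⟩ := trace_at L ha haa' hσd hσa haH haaH hHd hHa hk hkm hj (by
    rw [← commute_conj_iff' (g := h), hhz, show h * (h⁻¹ * j' * h) * h⁻¹ = j' by group]
    exact hjz')
  have hcd : c * d * c⁻¹ = d := by rw [hc.eq, mul_inv_cancel_right]
  refine ⟨c * J * c⁻¹, nbr_conjugates c hJ, ?_, fun x hx => ?_⟩
  · rw [← hcd, commute_conj_iff']
    exact hdJ
  obtain ⟨x, rfl⟩ : ∃ y, c * y * c⁻¹ = x := ⟨c⁻¹ * x * c, by group⟩
  have hx1 : x ∈ Nd d := by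
    have e := nd_conj hc.inv_left hx.1
    rwa [inv_inv, show c⁻¹ * (c * x * c⁻¹) * c = x by group] at e
  have hx2 : x ∈ nbr (conjugatesOf d) a := by
    have e := nbr_conjugates (d := d) c⁻¹ hx.2
    rwa [inv_inv, show c⁻¹ * (c * a * c⁻¹) * c = a by group,
      show c⁻¹ * (c * x * c⁻¹) * c = x by group] at e
  rw [commute_conj_iff', hth hx1, hJt x ⟨hx1, hx2⟩, ← commute_conj_iff' (g := h),
    show h * (h⁻¹ * j' * h) * h⁻¹ = j' by group]

end CfsgLib.Fi23Recog54
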